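import Cfsg.Agent.Lib.Sp4Pres.Setup
import Cfsg.Agent.Lib.SL3Pres.Bound

/-!
The coset enumeration: the group is no bigger than `Sp₄(F)`.
-/

set_option autoImplicit false
set_option linter.unusedSectionVars false

namespace CfsgLib.Sp4Pres

open CfsgLib.SL2Pres CfsgLib.SL3Pres
open scoped MatrixGroups commutatorElement Pointwise

variable {F : Type*} [Field F] [Finite F]

namespace Setup

variable {ω : Fˣ} {G : Type*} [Group G] (S : Setup ω G)

theorem xa_ab (t v : F) : S.xa t * S.xab v = S.xc (-(2 * t * v)) * S.xab v * S.xa t := by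
  rw [← S.comm_a_ab t v, commutatorElement_def]; group

theorem xa_b (t u : F) : S.xa t * S.xb u = S.xab (-(t * u)) * S.xc (t ^ 2 * u) * S.xb u * S.xa t := by
  rw [← S.comm_a_b t u, commutatorElement_def]; group

/-- Elements of the radical of the parabolic subgroup, in normal form. -/
def qEl (t v z : F) : G := S.xa t * S.xab v * S.xc z

theorem qEl_mul (t v z t' v' z' : F) :
    S.qEl t v z * S.qEl t' v' z' = S.qEl (t + t') (v + v') (2 * t' * v + z + z') := by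
  have e : S.xab v * S.xa t' = S.xa t' * S.xab v * S.xc (2 * t' * v) := by
    rw [xa_ab, mul_assoc _ (S.xa t'), (S.comm_a_c t' _).eq, ← mul_assoc, mul_assoc _ (S.xab v),
      (S.comm_ab_c v _).eq, ← mul_assoc, ← xc_add, neg_add_cancel, xc_zero, one_mul]
  simp only [qEl]
  calc S.xa t * S.xab v * S.xc z * (S.xa t' * S.xab v' * S.xc z')
      = S.xa t * S.xab v * (S.xc z * S.xa t') * S.xab v' * S.xc z' := by group
    _ = S.xa t * (S.xab v * S.xa t') * (S.xc z * S.xab v') * S.xc z' := by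
      rw [← (S.comm_a_c t' z).eq]; group
    _ = S.xa t * S.xa t' * S.xab v * (S.xc (2 * t' * v) * S.xab v') * (S.xc z * S.xc z') := by
      rw [e, ← (S.comm_ab_c v' z).eq]; group
    _ = (S.xa t * S.xa t') * (S.xab v * S.xab v') * (S.xc (2 * t' * v) * (S.xc z * S.xc z')) := by
      rw [← (S.comm_ab_c v' _).eq]; group
    _ = _ := by rw [← xa_add, ← xab_add, ← xc_add, ← xc_add, add_assoc]

/-- The radical of the parabolic subgroup. -/
def qSub : Subgroup G where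
  carrier := {g | ∃ t v z, S.qEl t v z = g}
  one_mem' := ⟨0, 0, 0, by simp [qEl, xa_zero, xab_zero, xc_zero]⟩
  mul_mem' := by
    rintro _ _ ⟨t, v, z, rfl⟩ ⟨t', v', z', rfl⟩
    exact ⟨_, _, _, (S.qEl_mul t v z t' v' z').symm⟩
  inv_mem' := by
    rintro _ ⟨t, v, z, rfl⟩
    refine ⟨-t, -v, 2 * t * v - z, eq_inv_of_mul_eq_one_left ?_⟩
    rw [qEl_mul, qEl, neg_add_cancel, neg_add_cancel,
      show 2 * t * -v + (2 * t * v - z) + z = 0 by ring, xa_zero, xab_zero, xc_zero, one_mul, one_mul]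

theorem xa_mem_q (t : F) : S.xa t ∈ S.qSub :=
  ⟨t, 0, 0, by rw [qEl, xab_zero, xc_zero, mul_one, mul_one]⟩

theorem xab_mem_q (v : F) : S.xab v ∈ S.qSub :=
  ⟨0, v, 0, by rw [qEl, xa_zero, xc_zero, one_mul, mul_one]⟩

theorem xc_mem_q (z : F) : S.xc z ∈ S.qSub :=
  ⟨0, 0, z, by rw [qEl, xa_zero, xab_zero, one_mul, one_mul]⟩

theorem nb_xab (v : F) : S.nb * S.xab v * S.nb⁻¹ = S.xa (-v) := by
  rw [xab, show S.nb * (S.nb * S.xa v * S.nb⁻¹) * S.nb⁻¹ = (S.nb * S.nb) * S.xa v * (S.nb * S.nb)⁻¹ by group,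
    nb_sq, hb_xa, inv_neg_one, Units.val_neg, Units.val_one, neg_one_mul]

theorem nbinv_xab (v : F) : S.nb⁻¹ * S.xab v * S.nb = S.xa v := by
  rw [xab]; group

theorem nbinv_xa (t : F) : S.nb⁻¹ * S.xa t * S.nb = S.xab (-t) := by
  rw [← neg_neg t, ← S.nb_xab]; simp [mul_assoc]

theorem nbinv_xc (z : F) : S.nb⁻¹ * S.xc z * S.nb = S.xc z := by
  conv_lhs => rw [← S.nb_xc z]
  group

theorem nainv_xab (v : F) : S.na⁻¹ * S.xab v * S.na = S.xab (-v) := by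
  rw [← neg_neg v, ← S.na_xab]; simp [mul_assoc]

theorem nainv_xc (z : F) : S.na⁻¹ * S.xc z * S.na = S.xb z := by
  rw [xc]; group

theorem na_xc (z : F) : S.na * S.xc z * S.na⁻¹ = S.xb z := by
  rw [xc, show S.na * (S.na * S.xb z * S.na⁻¹) * S.na⁻¹ = (S.na * S.na) * S.xb z * (S.na * S.na)⁻¹ by group,
    na_sq, ha_xb, inv_neg_one, Units.val_neg, Units.val_one, neg_one_sq, one_mul]

theorem nainv_xb (u : F) : S.na⁻¹ * S.xb u * S.na = S.xc u := by
  conv_lhs => rw [← S.na_xc u]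
  group

theorem φb_mem_closure {H : Subgroup G} (hx : ∀ t, S.xb t ∈ H) (hn : S.nb ∈ H) (g : SL(2, F)) :
    S.φb g ∈ H := by
  have : H.comap S.φb = ⊤ := closure_SL (fun t => hx t) hn
  exact (this ▸ Subgroup.mem_top g : g ∈ H.comap S.φb)

theorem φa_mem_closure {H : Subgroup G} (hx : ∀ t, S.xa t ∈ H) (hn : S.na ∈ H) (g : SL(2, F)) :
    S.φa g ∈ H := by
  have : H.comap S.φa = ⊤ := closure_SL (fun t => hx t) hn
  exact (this ▸ Subgroup.mem_top g : g ∈ H.comap S.φa)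

theorem q_conj_of {g : G} (ha : ∀ t, g * S.xa t * g⁻¹ ∈ S.qSub) (hab : ∀ v, g * S.xab v * g⁻¹ ∈ S.qSub)
    (hc : ∀ z, g * S.xc z * g⁻¹ ∈ S.qSub) : ∀ n ∈ S.qSub, g * n * g⁻¹ ∈ S.qSub := by
  rintro _ ⟨t, v, z, rfl⟩
  rw [qEl, ← conj_mul, ← conj_mul]
  exact mul_mem (mul_mem (ha t) (hab v)) (hc z)

theorem φb_conj_q (g : SL(2, F)) : S.φb g ∈ Subgroup.normalizer (S.qSub : Set G) := by
  have hx : ∀ u, ∀ n ∈ S.qSub, S.xb u * n * (S.xb u)⁻¹ ∈ S.qSub := fun u => by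
    refine S.q_conj_of (fun t => ?_) (fun v => ?_) (fun z => ?_)
    · have e : S.xb u * S.xa t * (S.xb u)⁻¹ = ⁅S.xa t, S.xb u⁆⁻¹ * S.xa t := by
        rw [commutatorElement_def]; group
      rw [e, comm_a_b]
      exact mul_mem (inv_mem (mul_mem (S.xab_mem_q _) (S.xc_mem_q _))) (S.xa_mem_q t)
    · rw [(S.comm_b_ab u v).eq, mul_inv_cancel_right]; exact S.xab_mem_q v
    · rw [(S.comm_b_c u z).eq, mul_inv_cancel_right]; exact S.xc_mem_q z
  have hn : ∀ n ∈ S.qSub, S.nb * n * S.nb⁻¹ ∈ S.qSub :=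
    S.q_conj_of (fun t => S.xab_mem_q t) (fun v => by rw [nb_xab]; exact S.xa_mem_q _)
      (fun z => by rw [nb_xc]; exact S.xc_mem_q z)
  refine S.φb_mem_closure (fun u => ?_) ?_ g
  · rw [Subgroup.mem_normalizer_iff]
    refine fun n => ⟨hx u n, fun h => ?_⟩
    have := hx (-u) _ h
    simpa [xb_neg, mul_assoc] using this
  · have hn' : ∀ n ∈ S.qSub, S.nb⁻¹ * n * S.nb⁻¹⁻¹ ∈ S.qSub :=
      S.q_conj_of (fun t => by rw [inv_inv, nbinv_xa]; exact S.xab_mem_q _)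
        (fun v => by rw [inv_inv, nbinv_xab]; exact S.xa_mem_q _)
        (fun z => by rw [inv_inv, nbinv_xc]; exact S.xc_mem_q z)
    rw [Subgroup.mem_normalizer_iff]
    refine fun n => ⟨hn n, fun h => ?_⟩
    have := hn' _ h
    simpa [mul_assoc] using this

theorem φb_conj_ha (s : Fˣ) (g : SL(2, F)) : S.ha s * S.φb g * (S.ha s)⁻¹ ∈ S.φb.range := by
  refine S.φb_mem_closure (H := (S.φb.range).comap (MulAut.conj (S.ha s)).toMonoidHom)
    (fun t => ⟨xS (((s⁻¹ : Fˣ) : F) ^ 2 * t), (S.ha_xb s t).symm⟩) ?_ g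
  show S.ha s * S.nb * (S.ha s)⁻¹ ∈ S.φb.range
  have e : S.ha s * S.nb * (S.ha s)⁻¹ = S.nb * S.hb (s * s) := by
    have h := S.nbinv_ha s
    have h' : S.ha s * S.nb = S.nb * (S.ha s * S.hb (s * s)) := by rw [← h]; group
    rw [h', (S.commute_ha_hb s (s * s)).eq]; group
  rw [e]; exact mul_mem ⟨_, rfl⟩ ⟨_, rfl⟩

/-- The parabolic subgroup. -/
def kSub : Subgroup G := S.qSub ⊔ (S.φb.range ⊔ S.ha.range)

theorem coe_kSub :
    (S.kSub : Set G) = (S.qSub : Set G) * ((S.φb.range : Set G) * (S.ha.range : Set G)) := by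
  have h1 : S.ha.range ≤ Subgroup.normalizer (S.φb.range : Set G) := le_normalizer_of_conj (by
    rintro _ ⟨s, rfl⟩ _ ⟨g, rfl⟩; exact S.φb_conj_ha s g)
  have h2 : S.φb.range ⊔ S.ha.range ≤ Subgroup.normalizer (S.qSub : Set G) := by
    refine sup_le ?_ (le_normalizer_of_conj ?_)
    · rintro _ ⟨g, rfl⟩; exact S.φb_conj_q g
    · rintro _ ⟨s, rfl⟩
      exact S.q_conj_of (fun t => by rw [ha_xa]; exact S.xa_mem_q _)
        (fun v => by rw [ha_xab]; exact S.xab_mem_q _) (fun z => by rw [ha_xc]; exact S.xc_mem_q _)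
  rw [kSub, Subgroup.coe_mul_of_right_le_normalizer_left _ _ h2,
    Subgroup.coe_mul_of_right_le_normalizer_left _ _ h1]

theorem finite_kSub : Finite S.kSub ∧
    Nat.card S.kSub ≤ Nat.card F ^ 3 * Nat.card SL(2, F) * (Nat.card F - 1) := by
  have hu : (S.qSub : Set G) = Set.range fun v : F × F × F => S.qEl v.1 v.2.1 v.2.2 :=
    Set.ext fun g => ⟨fun ⟨a, b, c, h⟩ => ⟨(a, b, c), h⟩, fun ⟨v, h⟩ => ⟨v.1, v.2.1, v.2.2, h⟩⟩
  have f1 : (S.qSub : Set G).Finite := hu ▸ Set.finite_range _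
  have f2 : (S.φb.range : Set G).Finite := by rw [MonoidHom.coe_range]; exact Set.finite_range _
  have f3 : (S.ha.range : Set G).Finite := by rw [MonoidHom.coe_range]; exact Set.finite_range _
  have hk := S.coe_kSub
  have hfin : (S.kSub : Set G).Finite := hk ▸ f1.mul (f2.mul f3)
  refine ⟨hfin.to_subtype, ?_⟩
  calc Nat.card S.kSub = Nat.card (S.kSub : Set G) := rfl
    _ ≤ Nat.card (S.qSub : Set G) *
        (Nat.card (S.φb.range : Set G) * Nat.card (S.ha.range : Set G)) := by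
      rw [hk]
      exact Set.natCard_mul_le.trans (Nat.mul_le_mul_left _ Set.natCard_mul_le)
    _ ≤ Nat.card (F × F × F) * (Nat.card SL(2, F) * Nat.card Fˣ) := by
      refine Nat.mul_le_mul ?_ (Nat.mul_le_mul ?_ ?_)
      · rw [hu]; exact Finite.card_range_le _
      · rw [MonoidHom.coe_range]; exact Finite.card_range_le _
      · rw [MonoidHom.coe_range]; exact Finite.card_range_le _
    _ = _ := by rw [Nat.card_prod, Nat.card_prod, Nat.card_units]; ring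

theorem q_le : S.qSub ≤ S.kSub := le_sup_left

theorem xa_mem (t : F) : S.xa t ∈ S.kSub := S.q_le (S.xa_mem_q t)
theorem xab_mem (t : F) : S.xab t ∈ S.kSub := S.q_le (S.xab_mem_q t)
theorem xc_mem (t : F) : S.xc t ∈ S.kSub := S.q_le (S.xc_mem_q t)
theorem xb_mem (t : F) : S.xb t ∈ S.kSub := Subgroup.mem_sup_right (Subgroup.mem_sup_left ⟨_, rfl⟩)
theorem nb_mem : S.nb ∈ S.kSub := Subgroup.mem_sup_right (Subgroup.mem_sup_left ⟨_, rfl⟩)
theorem hb_mem (s : Fˣ) : S.hb s ∈ S.kSub := Subgroup.mem_sup_right (Subgroup.mem_sup_left ⟨_, rfl⟩)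
theorem ha_mem (s : Fˣ) : S.ha s ∈ S.kSub := Subgroup.mem_sup_right (Subgroup.mem_sup_right ⟨_, rfl⟩)

/-- The representatives of the second and third kinds of cosets. -/
def v2 : G := S.nb * S.na
/-- The representative of the longest kind of cosets. -/
def v3 : G := S.na * S.nb * S.na

/-- Cosets of the first kind. -/
def C1 (t : F) : G ⧸ S.kSub := QuotientGroup.mk (S.xa t * S.na)
/-- Cosets of the second kind. -/
def C2 (u v : F) : G ⧸ S.kSub := QuotientGroup.mk (S.xb u * S.xab v * S.v2)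
/-- Cosets of the third kind. -/
def C3 (t v z : F) : G ⧸ S.kSub := QuotientGroup.mk (S.qEl t v z * S.v3)

theorem mk_eq_of {g g' k : G} (hk : k ∈ S.kSub) (e : g = g' * k) :
    (QuotientGroup.mk g : G ⧸ S.kSub) = QuotientGroup.mk g' := by
  rw [e, QuotientGroup.mk_mul_of_mem g' hk]

theorem v2_ha (s : Fˣ) : S.v2⁻¹ * S.ha s * S.v2 ∈ S.kSub := by
  have e : S.v2⁻¹ * S.ha s * S.v2 = S.na⁻¹ * (S.nb⁻¹ * S.ha s * S.nb) * S.na := by rw [v2]; group
  rw [e, nbinv_ha, show S.na⁻¹ * (S.ha s * S.hb (s * s)) * S.na =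
    (S.na⁻¹ * S.ha s * S.na) * (S.na⁻¹ * S.hb (s * s) * S.na) by group, nainv_ha, nainv_hb]
  exact mul_mem (S.ha_mem _) (mul_mem (S.ha_mem _) (S.hb_mem _))

theorem v2_hb (s : Fˣ) : S.v2⁻¹ * S.hb s * S.v2 ∈ S.kSub := by
  have e : S.v2⁻¹ * S.hb s * S.v2 = S.na⁻¹ * (S.nb⁻¹ * S.hb s * S.nb) * S.na := by rw [v2]; group
  rw [e, nbinv_hb, nainv_hb]
  exact mul_mem (S.ha_mem _) (S.hb_mem _)

theorem v3_ha (s : Fˣ) : S.v3⁻¹ * S.ha s * S.v3 ∈ S.kSub := by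
  have e : S.v3⁻¹ * S.ha s * S.v3 = S.v2⁻¹ * (S.na⁻¹ * S.ha s * S.na) * S.v2 := by
    rw [v2, v3]; group
  rw [e, nainv_ha]; exact S.v2_ha _

theorem v2_xa (t : F) : S.v2⁻¹ * S.xa t * S.v2 ∈ S.kSub := by
  rw [show S.v2⁻¹ * S.xa t * S.v2 = S.na⁻¹ * (S.nb⁻¹ * S.xa t * S.nb) * S.na by rw [v2]; group,
    nbinv_xa, nainv_xab]
  exact S.xab_mem _

theorem v2_xc (z : F) : S.v2⁻¹ * S.xc z * S.v2 ∈ S.kSub := by
  rw [show S.v2⁻¹ * S.xc z * S.v2 = S.na⁻¹ * (S.nb⁻¹ * S.xc z * S.nb) * S.na by rw [v2]; group,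
    nbinv_xc, nainv_xc]
  exact S.xb_mem _

theorem v3_xb (u : F) : S.v3⁻¹ * S.xb u * S.v3 ∈ S.kSub := by
  rw [show S.v3⁻¹ * S.xb u * S.v3 = S.v2⁻¹ * (S.na⁻¹ * S.xb u * S.na) * S.v2 by rw [v2, v3]; group,
    nainv_xb]
  exact S.v2_xc _

theorem xa_C1 (s t : F) : S.xa s • S.C1 t = S.C1 (s + t) := by
  rw [C1, C1, MulAction.Quotient.smul_mk, smul_eq_mul, xa_add, mul_assoc]

theorem xa_C2 (s u v : F) : S.xa s • S.C2 u v = S.C2 u (v - s * u) := by
  rw [C2, C2, MulAction.Quotient.smul_mk, smul_eq_mul]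
  refine S.mk_eq_of (k := S.v2⁻¹ * (S.xc (s ^ 2 * u) * S.xc (-(2 * s * v)) * S.xa s) * S.v2) ?_ ?_
  · rw [show S.v2⁻¹ * (S.xc (s ^ 2 * u) * S.xc (-(2 * s * v)) * S.xa s) * S.v2 =
      (S.v2⁻¹ * S.xc (s ^ 2 * u) * S.v2) * (S.v2⁻¹ * S.xc (-(2 * s * v)) * S.v2) *
        (S.v2⁻¹ * S.xa s * S.v2) by group]
    exact mul_mem (mul_mem (S.v2_xc _) (S.v2_xc _)) (S.v2_xa _)
  · have e : S.xa s * S.xb u * S.xab v =
        S.xb u * S.xab (v - s * u) * (S.xc (s ^ 2 * u) * S.xc (-(2 * s * v)) * S.xa s) := by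
      have h1 : Commute (S.xb u) (S.xc (s ^ 2 * u)) := S.comm_b_c _ _
      calc S.xa s * S.xb u * S.xab v
          = S.xab (-(s * u)) * (S.xc (s ^ 2 * u) * S.xb u) * (S.xa s * S.xab v) := by
            rw [S.xa_b]; group
        _ = (S.xab (-(s * u)) * S.xb u) * S.xc (s ^ 2 * u) * (S.xc (-(2 * s * v)) * S.xab v) * S.xa s := by
            rw [← h1.eq, S.xa_ab]; group
        _ = S.xb u * S.xab (-(s * u)) * S.xc (s ^ 2 * u) * (S.xab v * S.xc (-(2 * s * v))) * S.xa s := by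
            rw [← (S.comm_b_ab u _).eq, ← (S.comm_ab_c v (-(2 * s * v))).eq]
        _ = S.xb u * S.xab (-(s * u)) * (S.xc (s ^ 2 * u) * S.xab v) * S.xc (-(2 * s * v)) * S.xa s := by
            group
        _ = S.xb u * (S.xab (-(s * u)) * S.xab v) *
              (S.xc (s ^ 2 * u) * S.xc (-(2 * s * v)) * S.xa s) := by
            rw [← (S.comm_ab_c v _).eq]; group
        _ = _ := by rw [← xab_add, neg_add_eq_sub]
    rw [← mul_assoc, ← mul_assoc, e]; group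

theorem xa_C3 (s t v z : F) : S.xa s • S.C3 t v z = S.C3 (s + t) v z := by
  rw [C3, C3, MulAction.Quotient.smul_mk, smul_eq_mul, qEl, qEl, xa_add]
  simp only [mul_assoc]

theorem xb_C1 (r t : F) : S.xb r • S.C1 t = S.C1 t := by
  rw [C1, MulAction.Quotient.smul_mk, smul_eq_mul]
  refine S.mk_eq_of (k := S.na⁻¹ * (S.xa (-t) * S.xb r * S.xa t) * S.na) ?_ ?_
  · have e : S.xa (-t) * S.xb r * S.xa t = S.xab (t * r) * S.xc (t ^ 2 * r) * S.xb r := by
      rw [xa_b, mul_assoc _ (S.xa (-t)), ← xa_add, neg_add_cancel, xa_zero, mul_one, neg_mul, neg_neg,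
        neg_sq]
    rw [e, show S.na⁻¹ * (S.xab (t * r) * S.xc (t ^ 2 * r) * S.xb r) * S.na =
      (S.na⁻¹ * S.xab (t * r) * S.na) * (S.na⁻¹ * S.xc (t ^ 2 * r) * S.na) *
        (S.na⁻¹ * S.xb r * S.na) by group, nainv_xab, nainv_xc, nainv_xb]
    exact mul_mem (mul_mem (S.xab_mem _) (S.xb_mem _)) (S.xc_mem _)
  · rw [xa_neg]; group

theorem xb_C2 (r u v : F) : S.xb r • S.C2 u v = S.C2 (r + u) v := by
  rw [C2, C2, MulAction.Quotient.smul_mk, smul_eq_mul, xb_add]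
  simp only [mul_assoc]

theorem xb_C3 (r t v z : F) : S.xb r • S.C3 t v z = S.C3 t (v + t * r) (z + t ^ 2 * r) := by
  rw [C3, C3, MulAction.Quotient.smul_mk, smul_eq_mul, qEl, qEl]
  refine S.mk_eq_of (S.v3_xb r) ?_
  have e : S.xb r * S.xa t = S.xa t * (S.xab (t * r) * S.xc (t ^ 2 * r) * S.xb r) := by
    have h := S.xa_b (-t) r
    rw [neg_mul, neg_neg, neg_sq, xa_neg] at h
    calc S.xb r * S.xa t = S.xa t * ((S.xa t)⁻¹ * S.xb r) * S.xa t := by group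
      _ = _ := by rw [h]; group
  have c1 : Commute (S.xb r) (S.xab v * S.xc z) := (S.comm_b_ab r v).mul_right (S.comm_b_c r z)
  calc S.xb r * (S.xa t * S.xab v * S.xc z * S.v3)
      = (S.xb r * S.xa t) * (S.xab v * S.xc z) * S.v3 := by group
    _ = S.xa t * S.xab (t * r) * S.xc (t ^ 2 * r) * (S.xb r * (S.xab v * S.xc z)) * S.v3 := by
      rw [e]; group
    _ = S.xa t * S.xab (t * r) * (S.xc (t ^ 2 * r) * S.xab v) * S.xc z * S.xb r * S.v3 := by
      rw [c1.eq]; group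
    _ = S.xa t * (S.xab (t * r) * S.xab v) * (S.xc (t ^ 2 * r) * S.xc z) * S.xb r * S.v3 := by
      rw [← (S.comm_ab_c v _).eq]; group
    _ = _ := by rw [← xab_add, ← xc_add, add_comm (t * r), add_comm (t ^ 2 * r)]; group

theorem na_C1_zero : S.na • S.C1 0 = (QuotientGroup.mk 1 : G ⧸ S.kSub) := by
  rw [C1, MulAction.Quotient.smul_mk, smul_eq_mul, xa_zero, one_mul]
  exact S.mk_eq_of (S.ha_mem (-1)) (by rw [na_sq, one_mul])

theorem na_C2 (u v : F) : S.na • S.C2 u v = S.C3 0 (-v) u := by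
  rw [C2, C3, MulAction.Quotient.smul_mk, smul_eq_mul, qEl, xa_zero, one_mul]
  refine congrArg _ ?_
  have h1 := (S.comm_ab_c (-v) u).eq
  rw [h1, ← S.na_xab v, xc, v2, v3]; group

theorem na_C3_zero (v z : F) : S.na • S.C3 0 v z = S.C2 z (-v) := by
  rw [C2, C3, MulAction.Quotient.smul_mk, smul_eq_mul, qEl, xa_zero, one_mul]
  refine S.mk_eq_of (S.v2_ha (-1)) ?_
  have e1 : S.na * S.xab v * S.na⁻¹ = S.xab (-v) := S.na_xab v
  have e2 : S.na * S.xc z * S.na⁻¹ = S.xb z := S.na_xc z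
  calc S.na * (S.xab v * S.xc z * S.v3)
      = (S.na * S.xab v * S.na⁻¹) * (S.na * S.xc z * S.na⁻¹) * (S.na * S.na) * S.v2 := by
        rw [v2, v3]; group
    _ = _ := by
        rw [e1, e2, na_sq, ← (S.comm_b_ab z (-v)).eq]; group

theorem wS_xS_wS_image (φ : SL(2, F) →* G) (t : Fˣ) :
    φ wS * φ (xS (t : F)) * φ wS = φ (xS ((negInv t : Fˣ) : F)) * φ (dS (negInv t)) * φ wS *
      φ (xS ((negInv t : Fˣ) : F)) := by
  simp only [← map_mul, wS_xS_wS]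

theorem ha_C1 (s : Fˣ) (t : F) : S.ha s • S.C1 t = S.C1 ((s : F) ^ 2 * t) := by
  rw [C1, C1, MulAction.Quotient.smul_mk, smul_eq_mul]
  refine S.mk_eq_of (S.ha_mem s⁻¹) ?_
  rw [← ha_xa, ← nainv_ha]; group

theorem ha_C3 (s : Fˣ) (t v z : F) :
    S.ha s • S.C3 t v z = S.C3 ((s : F) ^ 2 * t) v ((s : F) ^ 2 * z) := by
  rw [C3, C3, MulAction.Quotient.smul_mk, smul_eq_mul, qEl, qEl]
  refine S.mk_eq_of (S.v3_ha s) ?_
  rw [← S.ha_xa, ← S.ha_xc]
  nth_rewrite 2 [← S.ha_xab s v]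
  group

theorem na_C1 (t : Fˣ) : S.na • S.C1 (t : F) = S.C1 ((negInv t : Fˣ) : F) := by
  rw [C1, C1, MulAction.Quotient.smul_mk, smul_eq_mul]
  refine S.mk_eq_of (k := S.ha (negInv t)⁻¹ * S.xa ((negInv t : Fˣ) : F))
    (mul_mem (S.ha_mem _) (S.xa_mem _)) ?_
  have h : S.na * S.xa (t : F) * S.na =
      S.xa ((negInv t : Fˣ) : F) * S.ha (negInv t) * S.na * S.xa ((negInv t : Fˣ) : F) :=
    wS_xS_wS_image S.φa t
  rw [← mul_assoc, h, ← nainv_ha]; group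

theorem na_C3 (t : Fˣ) (v z : F) :
    S.na • S.C3 (t : F) v z = S.C3 ((negInv t : Fˣ) : F) (v + ((negInv t : Fˣ) : F) * z)
      (((negInv t : Fˣ) : F) ^ 2 * z) := by
  set n := ((negInv t : Fˣ) : F)
  have hs : S.na * S.xa (t : F) * S.na = S.xa n * S.ha (negInv t) * S.na * S.xa n :=
    wS_xS_wS_image S.φa t
  have e0 : S.C3 0 v z = S.na • S.C2 z (-v) := by rw [na_C2, neg_neg]
  have e1 : S.C3 (t : F) v z = S.xa (t : F) • S.C3 0 v z := by rw [xa_C3, add_zero]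
  rw [e1, e0, smul_smul, smul_smul, hs, mul_smul, mul_smul, mul_smul, xa_C2, na_C2, ha_C3, xa_C3]
  congr 1 <;> ring

theorem nb_C1 (t : F) : S.nb • S.C1 t = S.C2 0 t := by
  rw [C1, C2, MulAction.Quotient.smul_mk, smul_eq_mul, xb_zero, one_mul, xab, v2]
  refine congrArg _ ?_
  group

theorem nb_C2_zero (v : F) : S.nb • S.C2 0 v = S.C1 (-v) := by
  rw [C1, C2, MulAction.Quotient.smul_mk, smul_eq_mul, xb_zero, one_mul]
  refine S.mk_eq_of (k := S.ha (-1) * S.hb (-1)) (mul_mem (S.ha_mem _) (S.hb_mem _)) ?_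
  calc S.nb * (S.xab v * S.v2) = (S.nb * S.xab v * S.nb⁻¹) * S.na * (S.na⁻¹ * (S.nb * S.nb) * S.na) := by
        rw [v2]; group
    _ = _ := by rw [nb_xab, nb_sq, nainv_hb]

theorem hb_C2 (s : Fˣ) (u v : F) : S.hb s • S.C2 u v = S.C2 ((s : F) ^ 2 * u) ((s : F) * v) := by
  rw [C2, C2, MulAction.Quotient.smul_mk, smul_eq_mul]
  refine S.mk_eq_of (S.v2_hb s) ?_
  rw [← S.hb_xb, ← S.hb_xab]; group

theorem nb_C2 (u : Fˣ) (v : F) :
    S.nb • S.C2 (u : F) v = S.C2 ((negInv u : Fˣ) : F) (((negInv u : Fˣ) : F) * v) := by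
  set n := ((negInv u : Fˣ) : F)
  have hs : S.nb * S.xb (u : F) * S.nb = S.xb n * S.hb (negInv u) * S.nb * S.xb n :=
    wS_xS_wS_image S.φb u
  have e : S.C2 (u : F) v = S.xb (u : F) • S.nb • S.C1 v := by rw [nb_C1, xb_C2, add_zero]
  rw [e, smul_smul, smul_smul, hs, mul_smul, mul_smul, mul_smul, xb_C1, nb_C1, hb_C2, xb_C2]
  congr 1; ring

theorem nb_C3 (t v z : F) : S.nb • S.C3 t v z = S.C3 (-v) t (z - 2 * v * t) := by
  rw [C3, C3, MulAction.Quotient.smul_mk, smul_eq_mul, qEl]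
  have hk : S.v3⁻¹ * S.nb * S.v3 ∈ S.kSub := by
    have hb : Commute S.nb (S.na⁻¹ * S.nb * S.na) := S.braid
    have e : S.v3⁻¹ * S.nb * S.v3 = S.na⁻¹ * (S.nb⁻¹ * (S.na⁻¹ * S.nb * S.na) * S.nb) * S.na := by
      rw [v3]; group
    rw [e, mul_assoc S.nb⁻¹, ← hb.eq, inv_mul_cancel_left,
      show S.na⁻¹ * (S.na⁻¹ * S.nb * S.na) * S.na = (S.na * S.na)⁻¹ * S.nb * (S.na * S.na) by group, na_sq]
    exact mul_mem (mul_mem (inv_mem (S.ha_mem _)) S.nb_mem) (S.ha_mem _)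
  refine S.mk_eq_of hk ?_
  calc S.nb * (S.xa t * S.xab v * S.xc z * S.v3)
      = (S.nb * S.xa t * S.nb⁻¹) * (S.nb * S.xab v * S.nb⁻¹) * (S.nb * S.xc z * S.nb⁻¹) *
          S.v3 * (S.v3⁻¹ * S.nb * S.v3) := by group
    _ = S.qEl 0 t 0 * S.qEl (-v) 0 z * S.v3 * (S.v3⁻¹ * S.nb * S.v3) := by
      rw [nb_xab, nb_xc, show S.nb * S.xa t * S.nb⁻¹ = S.xab t from rfl]
      simp only [qEl, xa_zero, xab_zero, xc_zero, one_mul, mul_one, mul_assoc]
    _ = _ := by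
      rw [qEl_mul, zero_add, add_zero, add_zero,
        show 2 * -v * t + z = z - 2 * v * t by ring]

/-- The four kinds of cosets. -/
def cosetMap : (Unit ⊕ F) ⊕ ((F × F) ⊕ (F × F × F)) → G ⧸ S.kSub
  | .inl (.inl _) => QuotientGroup.mk 1
  | .inl (.inr t) => S.C1 t
  | .inr (.inl v) => S.C2 v.1 v.2
  | .inr (.inr v) => S.C3 v.1 v.2.1 v.2.2

theorem smul_one_of_mem {g : G} (h : g ∈ S.kSub) :
    g • (QuotientGroup.mk 1 : G ⧸ S.kSub) = QuotientGroup.mk 1 := by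
  rw [MulAction.Quotient.smul_mk, smul_eq_mul, mul_one]
  exact S.mk_eq_of h (one_mul g).symm

theorem move_xa (s : F) (i : (Unit ⊕ F) ⊕ ((F × F) ⊕ (F × F × F))) :
    S.xa s • S.cosetMap i ∈ Set.range S.cosetMap := by
  rcases i with (u | t) | (⟨u, v⟩ | ⟨t, v, z⟩)
  · exact ⟨.inl (.inl ()), (S.smul_one_of_mem (S.xa_mem s)).symm⟩
  · exact ⟨.inl (.inr _), (S.xa_C1 s t).symm⟩
  · exact ⟨.inr (.inl (_, _)), (S.xa_C2 s u v).symm⟩
  · exact ⟨.inr (.inr (_, _, _)), (S.xa_C3 s t v z).symm⟩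

theorem move_xb (r : F) (i : (Unit ⊕ F) ⊕ ((F × F) ⊕ (F × F × F))) :
    S.xb r • S.cosetMap i ∈ Set.range S.cosetMap := by
  rcases i with (u | t) | (⟨u, v⟩ | ⟨t, v, z⟩)
  · exact ⟨.inl (.inl ()), (S.smul_one_of_mem (S.xb_mem r)).symm⟩
  · exact ⟨.inl (.inr _), (S.xb_C1 r t).symm⟩
  · exact ⟨.inr (.inl (_, _)), (S.xb_C2 r u v).symm⟩
  · exact ⟨.inr (.inr (_, _, _)), (S.xb_C3 r t v z).symm⟩

theorem move_na (i : (Unit ⊕ F) ⊕ ((F × F) ⊕ (F × F × F))) :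
    S.na • S.cosetMap i ∈ Set.range S.cosetMap := by
  rcases i with (u | t) | (⟨u, v⟩ | ⟨t, v, z⟩)
  · refine ⟨.inl (.inr 0), ?_⟩
    simp only [cosetMap, C1, MulAction.Quotient.smul_mk, smul_eq_mul, xa_zero, one_mul, mul_one]
  · rcases eq_or_ne t 0 with rfl | ht
    · exact ⟨.inl (.inl ()), S.na_C1_zero.symm⟩
    · exact ⟨.inl (.inr _), (S.na_C1 (Units.mk0 t ht)).symm⟩
  · exact ⟨.inr (.inr (_, _, _)), (S.na_C2 u v).symm⟩
  · rcases eq_or_ne t 0 with rfl | ht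
    · exact ⟨.inr (.inl (_, _)), (S.na_C3_zero v z).symm⟩
    · exact ⟨.inr (.inr (_, _, _)), (S.na_C3 (Units.mk0 t ht) v z).symm⟩

theorem move_nb (i : (Unit ⊕ F) ⊕ ((F × F) ⊕ (F × F × F))) :
    S.nb • S.cosetMap i ∈ Set.range S.cosetMap := by
  rcases i with (u | t) | (⟨u, v⟩ | ⟨t, v, z⟩)
  · exact ⟨.inl (.inl ()), (S.smul_one_of_mem S.nb_mem).symm⟩
  · exact ⟨.inr (.inl (_, _)), (S.nb_C1 t).symm⟩
  · rcases eq_or_ne u 0 with rfl | hu
    · exact ⟨.inl (.inr _), (S.nb_C2_zero v).symm⟩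
    · exact ⟨.inr (.inl (_, _)), (S.nb_C2 (Units.mk0 u hu) v).symm⟩
  · exact ⟨.inr (.inr (_, _, _)), (S.nb_C3 t v z).symm⟩

theorem finite_and_card_le (hgen : Subgroup.closure (Set.range S.φa ∪ Set.range S.φb) = ⊤) :
    Finite G ∧ Nat.card G ≤
      (1 + Nat.card F + Nat.card F ^ 2 + Nat.card F ^ 3) *
        (Nat.card F ^ 3 * Nat.card SL(2, F) * (Nat.card F - 1)) := by
  obtain ⟨hKfin, hK⟩ := S.finite_kSub
  have hst : (MulAction.stabilizer G (Set.range S.cosetMap)) = ⊤ := by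
    rw [eq_top_iff, ← hgen, Subgroup.closure_le]
    have hm : ∀ g : G, (∀ i, g • S.cosetMap i ∈ Set.range S.cosetMap) →
        g ∈ MulAction.stabilizer G (Set.range S.cosetMap) := fun g hg => by
      rw [MulAction.mem_stabilizer_set' (Set.finite_range _)]
      rintro _ ⟨i, rfl⟩; exact hg i
    rintro g (⟨g, rfl⟩ | ⟨g, rfl⟩)
    · exact S.φa_mem_closure (fun t => hm _ (S.move_xa t)) (hm _ S.move_na) g
    · exact S.φb_mem_closure (fun t => hm _ (S.move_xb t)) (hm _ S.move_nb) g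
  have hsurj : Function.Surjective S.cosetMap := fun q => by
    induction q using QuotientGroup.induction_on with
    | H g =>
      have h1 : (QuotientGroup.mk 1 : G ⧸ S.kSub) ∈ Set.range S.cosetMap := ⟨.inl (.inl ()), rfl⟩
      have hg : g • Set.range S.cosetMap = Set.range S.cosetMap :=
        MulAction.mem_stabilizer_iff.1 (hst ▸ Subgroup.mem_top g)
      have h2 := Set.smul_mem_smul_set (a := g) h1
      rw [hg, MulAction.Quotient.smul_mk, smul_eq_mul, mul_one] at h2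
      exact h2
  have : Finite (G ⧸ S.kSub) := Finite.of_surjective _ hsurj
  have hq : Nat.card (G ⧸ S.kSub) ≤ 1 + Nat.card F + Nat.card F ^ 2 + Nat.card F ^ 3 := by
    refine (Nat.card_le_card_of_surjective _ hsurj).trans_eq ?_
    simp only [Nat.card_sum, Nat.card_prod, Nat.card_unique (α := Unit)]
    ring
  refine ⟨Finite.of_equiv _ (Subgroup.groupEquivQuotientProdSubgroup (s := S.kSub)).symm, ?_⟩
  rw [Subgroup.card_eq_card_quotient_mul_card_subgroup S.kSub]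
  exact Nat.mul_le_mul hq hK

end Setup

end CfsgLib.Sp4Pres
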