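import Cfsg.Agent.Lib.Sp4Pres.Setup
import Cfsg.Agent.Lib.ClassicalLinear.SympCard
import Cfsg.Agent.Lib.ClassicalLinear.SympBasic

/-!
`Sp₄(F)` with its two copies of `SL₂(F)` satisfies the relations and is generated by them.
-/

set_option autoImplicit false
set_option linter.unusedSectionVars false

namespace CfsgLib.Sp4Pres

open CfsgLib.SL2Pres CfsgLib.SL3Pres Matrix
open scoped MatrixGroups commutatorElement

variable {F : Type*} [Field F] [Finite F]

local notation "M4" => Matrix (Fin 2 ⊕ Fin 2) (Fin 2 ⊕ Fin 2) F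

/-- The Levi copy of `SL₂`, as a matrix. -/
def matA (A : SL(2, F)) : M4 :=
  fromBlocks !![A.1 0 0, A.1 0 1; A.1 1 0, A.1 1 1] 0 0 !![A.1 1 1, -A.1 1 0; -A.1 0 1, A.1 0 0]

/-- The copy of `SL₂` on the second hyperbolic pair, as a matrix. -/
def matB (A : SL(2, F)) : M4 :=
  fromBlocks !![1, 0; 0, A.1 0 0] !![0, 0; 0, A.1 0 1] !![0, 0; 0, A.1 1 0] !![1, 0; 0, A.1 1 1]

theorem det_two (A : SL(2, F)) : A.1 0 0 * A.1 1 1 - A.1 0 1 * A.1 1 0 = 1 :=
  (Matrix.det_fin_two A.1).symm.trans A.2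

theorem matA_mem (A : SL(2, F)) : matA A ∈ Matrix.symplecticGroup (Fin 2) F := by
  have h := det_two A
  rw [SymplecticGroup.mem_iff, Matrix.J, matA, fromBlocks_transpose, fromBlocks_multiply, fromBlocks_multiply]
  congr 1 <;> ext i j <;> fin_cases i <;> fin_cases j <;>
    simp [Matrix.mul_apply, Fin.sum_univ_two, Matrix.vecMul, dotProduct, Matrix.transpose_apply] <;>
    first | ring1 | linear_combination h | linear_combination -h

theorem matB_mem (A : SL(2, F)) : matB A ∈ Matrix.symplecticGroup (Fin 2) F := by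
  have h := det_two A
  rw [SymplecticGroup.mem_iff, Matrix.J, matB, fromBlocks_transpose, fromBlocks_multiply, fromBlocks_multiply]
  congr 1 <;> ext i j <;> fin_cases i <;> fin_cases j <;>
    simp [Matrix.mul_apply, Fin.sum_univ_two, Matrix.vecMul, dotProduct, Matrix.transpose_apply] <;>
    first | ring1 | linear_combination h | linear_combination -h

/-- The Levi copy of `SL₂`. -/
def embA : SL(2, F) →* Matrix.symplecticGroup (Fin 2) F :=
  MonoidHom.mk' (fun A => ⟨matA A, matA_mem A⟩) fun A B => Subtype.ext (by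
    show matA (A * B) = matA A * matA B
    rw [matA, matA, matA, fromBlocks_multiply]
    congr 1 <;> ext i j <;> fin_cases i <;> fin_cases j <;>
      simp [Matrix.mul_apply, Fin.sum_univ_two, Matrix.SpecialLinearGroup.coe_mul] <;> ring)

/-- The copy of `SL₂` on the second hyperbolic pair. -/
def embB : SL(2, F) →* Matrix.symplecticGroup (Fin 2) F :=
  MonoidHom.mk' (fun A => ⟨matB A, matB_mem A⟩) fun A B => Subtype.ext (by
    show matB (A * B) = matB A * matB B
    rw [matB, matB, matB, fromBlocks_multiply]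
    congr 1 <;> ext i j <;> fin_cases i <;> fin_cases j <;>
      simp [Matrix.mul_apply, Fin.sum_univ_two, Matrix.SpecialLinearGroup.coe_mul])

theorem coe_embA (A : SL(2, F)) : (embA A : M4) = matA A := rfl

theorem coe_embB (A : SL(2, F)) : (embB A : M4) = matB A := rfl

local macro "sp4ext" : tactic =>
  `(tactic| (apply Subtype.ext; simp only [Submonoid.coe_mul, coe_embA, coe_embB, matA, matB,
      fromBlocks_multiply]
             congr 1 <;> ext i j <;> fin_cases i <;> fin_cases j <;>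
      simp [coe_xS, coe_wS, coe_dS, Units.val_inv_eq_inv_val, Matrix.mul_apply, Fin.sum_univ_two] <;>
      (try field_simp) <;> (try ring)))

theorem commute_dS (s t : Fˣ) : Commute (embA (dS s)) (embB (dS t)) := by
  show embA (dS s) * embB (dS t) = embB (dS t) * embA (dS s)
  sp4ext

theorem model_hbXa (s : Fˣ) :
    embB (dS s) * embA (xS 1) * (embB (dS s))⁻¹ = embA (xS ((s⁻¹ : Fˣ) : F)) := by
  rw [mul_inv_eq_iff_eq_mul]; sp4ext

theorem model_haXb (s : Fˣ) :
    embA (dS s) * embB (xS 1) * (embA (dS s))⁻¹ = (embB (dS s))⁻¹ * embB (xS 1) * embB (dS s) := by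
  rw [mul_inv_eq_iff_eq_mul, ← map_inv, ← map_inv]; sp4ext

theorem model_naHb (s : Fˣ) :
    embA wS * embB (dS s) * (embA wS)⁻¹ = embA (dS s) * embB (dS s) := by
  rw [mul_inv_eq_iff_eq_mul]; sp4ext

theorem model_nbHa (s : Fˣ) :
    embB wS * embA (dS s) * (embB wS)⁻¹ = embA (dS s) * (embB (dS s) * embB (dS s)) := by
  rw [mul_inv_eq_iff_eq_mul]; sp4ext

/-- The root element of `a + b`, as a matrix. -/
def matAB (t : F) : M4 := fromBlocks 1 !![0, -t; -t, 0] 0 1

/-- The root element of `2a + b`, as a matrix. -/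
def matC (t : F) : M4 := fromBlocks 1 !![t, 0; 0, 0] 0 1

theorem matAB_mem (t : F) : matAB t ∈ Matrix.symplecticGroup (Fin 2) F := by
  rw [SymplecticGroup.mem_iff, Matrix.J, matAB, fromBlocks_transpose, fromBlocks_multiply, fromBlocks_multiply]
  congr 1 <;> ext i j <;> fin_cases i <;> fin_cases j <;> simp

theorem matC_mem (t : F) : matC t ∈ Matrix.symplecticGroup (Fin 2) F := by
  rw [SymplecticGroup.mem_iff, Matrix.J, matC, fromBlocks_transpose, fromBlocks_multiply, fromBlocks_multiply]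
  congr 1 <;> ext i j <;> fin_cases i <;> fin_cases j <;> simp

/-- The root element of `a + b`. -/
def eAB (t : F) : Matrix.symplecticGroup (Fin 2) F := ⟨matAB t, matAB_mem t⟩

/-- The root element of `2a + b`. -/
def eC (t : F) : Matrix.symplecticGroup (Fin 2) F := ⟨matC t, matC_mem t⟩

theorem coe_eAB (t : F) : (eAB t : M4) = matAB t := rfl
theorem coe_eC (t : F) : (eC t : M4) = matC t := rfl

local macro "sp4ext'" : tactic =>
  `(tactic| (apply Subtype.ext
             simp only [Submonoid.coe_mul, coe_embA, coe_embB, coe_eAB, coe_eC, matA, matB, matAB, matC,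
               fromBlocks_multiply]
             congr 1 <;> ext i j <;> fin_cases i <;> fin_cases j <;>
      simp [coe_xS, coe_wS] <;> (try ring)))

theorem conj_ab (t : F) : embB (wS : SL(2, F)) * embA (xS t) * (embB wS)⁻¹ = eAB t := by
  rw [mul_inv_eq_iff_eq_mul]; sp4ext'

theorem conj_c (t : F) : embA (wS : SL(2, F)) * embB (xS t) * (embA wS)⁻¹ = eC t := by
  rw [mul_inv_eq_iff_eq_mul]; sp4ext'

theorem model_naAB :
    embA wS * (embB wS * embA (xS (1 : F)) * (embB wS)⁻¹) * (embA (wS : SL(2, F)))⁻¹ =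
      embB wS * embA (xS (-1)) * (embB wS)⁻¹ := by
  rw [conj_ab, conj_ab, mul_inv_eq_iff_eq_mul]; sp4ext'

theorem model_nbAAB :
    embB wS * (embA wS * embB (xS (1 : F)) * (embA wS)⁻¹) * (embB (wS : SL(2, F)))⁻¹ =
      embA wS * embB (xS 1) * (embA wS)⁻¹ := by
  rw [conj_c, mul_inv_eq_iff_eq_mul]; sp4ext'

theorem model_braid :
    Commute (embB (wS : SL(2, F))) ((embA wS)⁻¹ * embB wS * embA wS) := by
  show embB (wS : SL(2, F)) * ((embA wS)⁻¹ * embB wS * embA wS) = (embA wS)⁻¹ * embB wS * embA wS * embB wS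
  rw [← map_inv]
  sp4ext

theorem model_bAB :
    Commute (embB (xS (1 : F))) (embB wS * embA (xS 1) * (embB wS)⁻¹) := by
  rw [conj_ab]
  show embB (xS (1 : F)) * eAB 1 = eAB 1 * embB (xS 1)
  sp4ext'

theorem model_bAAB :
    Commute (embB (xS (1 : F))) (embA wS * embB (xS 1) * (embA wS)⁻¹) := by
  rw [conj_c]
  show embB (xS (1 : F)) * eC 1 = eC 1 * embB (xS 1)
  sp4ext'

theorem model_aAB :
    ⁅embA (xS (1 : F)), embB wS * embA (xS 1) * (embB wS)⁻¹⁆ = embA wS * embB (xS (-2 : F)) * (embA wS)⁻¹ := by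
  rw [conj_ab, conj_c, commutatorElement_def, mul_inv_eq_iff_eq_mul, mul_inv_eq_iff_eq_mul]; sp4ext'

theorem model_aB :
    ⁅embA (xS (1 : F)), embB (xS 1)⁆ =
      embB wS * embA (xS (-1 : F)) * (embB wS)⁻¹ * (embA wS * embB (xS (1 : F)) * (embA wS)⁻¹) := by
  rw [conj_ab, conj_c, commutatorElement_def, mul_inv_eq_iff_eq_mul, mul_inv_eq_iff_eq_mul]
  sp4ext'

/-- The setting of the presentation, inside `Sp₄(F)`. -/
def modelSetup {ω : Fˣ} (hω : ∀ x : Fˣ, x ∈ Subgroup.zpowers ω) :
    Setup ω (Matrix.symplecticGroup (Fin 2) F) where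
  gen := hω
  φa := embA
  φb := embB
  torus := commute_dS ω ω
  hbXa := model_hbXa ω
  haXb := model_haXb ω
  naHb := model_naHb ω
  nbHa := model_nbHa ω
  naAB := model_naAB
  nbAAB := model_nbAAB
  braid := model_braid
  bAB := model_bAB
  bAAB := model_bAAB
  aAB := model_aAB
  aB := model_aB

theorem exists_mulVec_snd_zero (p r : F) : ∃ A : SL(2, F), A.1 1 0 * p + A.1 1 1 * r = 0 := by
  rcases eq_or_ne p 0 with rfl | hp
  · exact ⟨wS, by simp [coe_wS]⟩
  · exact ⟨yS (-(r / p)), by simp [coe_yS]; field_simp; ring⟩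

theorem closure_emb :
    Subgroup.closure (Set.range (embA : SL(2, F) →* Matrix.symplecticGroup (Fin 2) F) ∪ Set.range embB) = ⊤ := by
  set H := Subgroup.closure (Set.range (embA : SL(2, F) →* Matrix.symplecticGroup (Fin 2) F) ∪ Set.range embB)
  have hA : ∀ A, embA A ∈ H := fun A => Subgroup.subset_closure (Or.inl ⟨A, rfl⟩)
  have hB : ∀ A, embB A ∈ H := fun A => Subgroup.subset_closure (Or.inr ⟨A, rfl⟩)
  set e : Fin 2 ⊕ Fin 2 → F := Pi.single (Sum.inl 1) 1 with he
  have hT : ∀ c, ClassicalLinear.spT e c ∈ H := fun c => by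
    have h : ClassicalLinear.spT e c = embB (xS c) := by
      apply Subtype.ext
      show Cfsg.sympTransvection 2 e c = matB (xS c)
      ext (i | i) (j | j) <;> fin_cases i <;> fin_cases j <;>
        simp [Cfsg.sympTransvection, he, matB, coe_xS, Matrix.J, Matrix.vecMulVec_apply, Matrix.mulVec_single]
    exact h ▸ hB _
  have key : ∀ w : Fin 2 ⊕ Fin 2 → F, ∃ g ∈ H, ∃ x : F, g • w = x • e := by
    intro w
    have smulB : ∀ (A : SL(2, F)) (w : Fin 2 ⊕ Fin 2 → F), embB A • w =
        Sum.elim ![w (.inl 0), A.1 0 0 * w (.inl 1) + A.1 0 1 * w (.inr 1)]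
          ![w (.inr 0), A.1 1 0 * w (.inl 1) + A.1 1 1 * w (.inr 1)] := fun A w => by
      rw [ClassicalLinear.sp_smul_eq, coe_embB]
      funext k
      rcases k with k | k <;> fin_cases k <;>
        simp [matB, Matrix.mulVec, dotProduct, Fintype.sum_sum_type, Fin.sum_univ_two]
    have smulA : ∀ (A : SL(2, F)) (w : Fin 2 ⊕ Fin 2 → F), embA A • w =
        Sum.elim ![A.1 0 0 * w (.inl 0) + A.1 0 1 * w (.inl 1), A.1 1 0 * w (.inl 0) + A.1 1 1 * w (.inl 1)]
          ![A.1 1 1 * w (.inr 0) - A.1 1 0 * w (.inr 1), -(A.1 0 1 * w (.inr 0)) + A.1 0 0 * w (.inr 1)] :=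
      fun A w => by
      rw [ClassicalLinear.sp_smul_eq, coe_embA]
      funext k
      rcases k with k | k <;> fin_cases k <;>
        simp [matA, Matrix.mulVec, dotProduct, Fintype.sum_sum_type, Fin.sum_univ_two, sub_eq_add_neg]
    obtain ⟨B₁, h1⟩ := exists_mulVec_snd_zero (w (.inl 1)) (w (.inr 1))
    set w₁ := embB B₁ • w with hw1
    have a1 : w₁ (.inr 1) = 0 := by rw [hw1, smulB]; simpa using h1
    set w₂ := embA (wS : SL(2, F)) • w₁ with hw2
    have a2 : w₂ (.inr 0) = 0 := by rw [hw2, smulA]; simp [coe_wS, a1]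
    obtain ⟨B₂, h3⟩ := exists_mulVec_snd_zero (w₂ (.inl 1)) (w₂ (.inr 1))
    set w₃ := embB B₂ • w₂ with hw3
    have a3 : w₃ (.inr 1) = 0 := by rw [hw3, smulB]; simpa using h3
    have a3' : w₃ (.inr 0) = 0 := by rw [hw3, smulB]; simpa using a2
    obtain ⟨A, h4⟩ := exists_mulVec_snd_zero (w₃ (.inl 0)) (w₃ (.inl 1))
    -- `wS * A` sends the pair onto the second coordinate axis
    refine ⟨embA (wS * A) * embB B₂ * embA wS * embB B₁,
      mul_mem (mul_mem (mul_mem (hA _) (hB _)) (hA _)) (hB _),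
      (embA (wS * A) • w₃) (.inl 1), ?_⟩
    rw [mul_smul, mul_smul, mul_smul, ← hw1, ← hw2, ← hw3]
    funext k
    rw [smulA]
    rcases k with k | k <;> fin_cases k <;>
      simp [he, a3, a3', coe_wS, Matrix.SpecialLinearGroup.coe_mul, Matrix.mul_apply, Fin.sum_univ_two] <;>
      linear_combination h4
  rw [eq_top_iff, ← ClassicalLinear.closure_spT_eq_top, Subgroup.closure_le]
  rintro _ ⟨w, c, rfl⟩
  obtain ⟨g, hg, x, hx⟩ := key w
  have : ClassicalLinear.spT w c = g⁻¹ * ClassicalLinear.spT e (x ^ 2 * c) * g := by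
    rw [← ClassicalLinear.spT_smul_vec, ← hx, ← ClassicalLinear.conj_spT]; group
  rw [this]
  exact mul_mem (mul_mem (inv_mem hg) (hT _)) hg

end CfsgLib.Sp4Pres
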