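import Cfsg.Agent.Lib.SL3Pres.Main
import Cfsg.Agent.Lib.Sp4Pres.Bound
import Cfsg.Agent.Lib.Sp4Pres.Model

/-!
`Sp₄(F)` and `PSp₄(F)` on six generators and at most 28 and 29 relations.
-/

set_option autoImplicit false
set_option linter.unusedSectionVars false

namespace CfsgLib.Sp4Pres

open Polynomial CfsgLib.SL2Pres CfsgLib.SL3Pres
open scoped MatrixGroups commutatorElement

universe u

variable {F : Type u} [Field F] [Finite F] {p : ℕ} [Fact p.Prime] [Algebra (ZMod p) F]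

local notation "aU" => (FreeGroup.of (0 : Fin 6) : FreeGroup (Fin 6))
local notation "aH" => (FreeGroup.of (1 : Fin 6) : FreeGroup (Fin 6))
local notation "aW" => (FreeGroup.of (2 : Fin 6) : FreeGroup (Fin 6))
local notation "bU" => (FreeGroup.of (3 : Fin 6) : FreeGroup (Fin 6))
local notation "bH" => (FreeGroup.of (4 : Fin 6) : FreeGroup (Fin 6))
local notation "bW" => (FreeGroup.of (5 : Fin 6) : FreeGroup (Fin 6))

/-- The generators of `Sp₄(F)`. -/
def f6 (ω : Fˣ) : Fin 6 → Matrix.symplecticGroup (Fin 2) F :=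
  ![embA (xS 1), embA (dS ω), embA wS, embB (xS 1), embB (dS ω), embB wS]

/-- The twelve relators linking the two copies of `SL₂(F)`. -/
noncomputable def linkRels (Pi : (ZMod p)[X]) : List (FreeGroup (Fin 6)) :=
  [aH * bH * (bH * aH)⁻¹,
    bH * aU * bH⁻¹ * (pval aU aH 1 Pi)⁻¹,
    aH * bU * aH⁻¹ * (bH⁻¹ * bU * bH)⁻¹,
    aW * bH * aW⁻¹ * (aH * bH)⁻¹,
    bW * aH * bW⁻¹ * (aH * (bH * bH))⁻¹,
    aW * (bW * aU * bW⁻¹) * aW⁻¹ * (bW * aU⁻¹ * bW⁻¹)⁻¹,
    bW * (aW * bU * aW⁻¹) * bW⁻¹ * (aW * bU * aW⁻¹)⁻¹,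
    bW * (aW⁻¹ * bW * aW) * (aW⁻¹ * bW * aW * bW)⁻¹,
    bU * (bW * aU * bW⁻¹) * (bW * aU * bW⁻¹ * bU)⁻¹,
    bU * (aW * bU * aW⁻¹) * (aW * bU * aW⁻¹ * bU)⁻¹,
    ⁅aU, bW * aU * bW⁻¹⁆ * (aW * (bU⁻¹ * bU⁻¹) * aW⁻¹)⁻¹,
    ⁅aU, bU⁆ * (bW * aU⁻¹ * bW⁻¹ * (aW * bU * aW⁻¹))⁻¹]

variable {ω : Fˣ} {G : Type*} [Group G]

theorem xS_neg_two (φ : SL(2, F) →* G) : φ (xS (-2)) = (φ (xS 1))⁻¹ * (φ (xS 1))⁻¹ := by
  rw [← map_inv, ← map_mul, ← xS_neg, ← xS_add]; norm_num

theorem xS_neg_one (φ : SL(2, F) →* G) : φ (xS (-1)) = (φ (xS 1))⁻¹ := by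
  rw [← map_inv, ← xS_neg]

theorem card_Sp_four :
    Nat.card (Matrix.symplecticGroup (Fin 2) F) =
      (1 + Nat.card F + Nat.card F ^ 2 + Nat.card F ^ 3) *
        (Nat.card F ^ 3 * Nat.card SL(2, F) * (Nat.card F - 1)) := by
  let _ : Fintype F := Fintype.ofFinite F
  rw [Nat.card_eq_fintype_card (α := F), ClassicalLinear.card_SL_two rfl, ClassicalLinear.card_sp]
  simp only [Finset.prod_range_succ, Finset.prod_range_zero, one_mul, Nat.reduceAdd, Nat.reduceMul,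
    Nat.reducePow]
  have h1 : 1 < Fintype.card F := Fintype.one_lt_card
  generalize Fintype.card F = q at *
  obtain ⟨m, rfl⟩ : ∃ m, q = m + 2 := ⟨q - 2, by omega⟩
  have e2 : (m + 2) ^ 2 - 1 = (m + 1) * (m + 3) := by
    rw [show (m + 2) ^ 2 = (m + 1) * (m + 3) + 1 by ring, Nat.add_sub_cancel]
  have e4 : (m + 2) ^ 4 - 1 = (m + 1) * (1 + (m + 2) + (m + 2) ^ 2 + (m + 2) ^ 3) := by
    rw [show (m + 2) ^ 4 = (m + 1) * (1 + (m + 2) + (m + 2) ^ 2 + (m + 2) ^ 3) + 1 by ring,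
      Nat.add_sub_cancel]
  rw [e2, e4, show m + 2 - 1 = m + 1 by omega]
  ring

/-- The relators of `Sp₄(F)`, their number, and the isomorphism they give. -/
theorem presentation_of (hω : ∀ x : Fˣ, x ∈ Subgroup.zpowers ω) (h2 : IsRelators ω 8)
    {Pi : (ZMod p)[X]} (hPi : aeval ((ω : F) ^ 2) Pi = ((ω⁻¹ : Fˣ) : F)) :
    ∃ rels : Finset (FreeGroup (Fin 6)), rels.card ≤ 28 ∧
      ∃ e : PresentedGroup (↑rels : Set (FreeGroup (Fin 6))) ≃* Matrix.symplecticGroup (Fin 2) F,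
        ∀ i, e (PresentedGroup.of i) = f6 ω i := by
  classical
  obtain ⟨R, hRm, hRS, hRφ⟩ := h2
  set L := R.map (FreeGroup.map (Fin.castAdd 3)) ++ R.map (FreeGroup.map (Fin.natAdd 3)) ++ linkRels Pi
    with hL
  refine ⟨L.toFinset, (List.toFinset_card_le _).trans (by simp [hL, linkRels]; omega), ?_⟩
  rw [List.coe_toFinset]
  have hmap : ∀ {H : Type u} [Group H] (g : Fin 6 → H) (ι : Fin 3 → Fin 6) (r : FreeGroup (Fin 3)),
      FreeGroup.lift g (FreeGroup.map ι r) = FreeGroup.lift (g ∘ ι) r := by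
    intro H _ g ι r
    have h : (FreeGroup.lift g).comp (FreeGroup.map ι) = FreeGroup.lift (g ∘ ι) :=
      FreeGroup.ext_hom _ _ fun a => by simp
    exact DFunLike.congr_fun h r
  have hlift : ∀ (φ : SL(2, F) →* Matrix.symplecticGroup (Fin 2) F) (r : FreeGroup (Fin 3)), r ∈ R →
      FreeGroup.lift (φ ∘ fS ω) r = 1 := fun φ r hr => by
    have h : FreeGroup.lift (φ ∘ fS ω) = φ.comp (FreeGroup.lift (fS ω)) :=
      FreeGroup.ext_hom _ _ fun a => by simp
    rw [h, MonoidHom.comp_apply, hRS r hr, map_one]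
  have hfA : f6 ω ∘ Fin.castAdd 3 = (embA : SL(2, F) →* _) ∘ fS ω := by funext i; fin_cases i <;> rfl
  have hfB : f6 ω ∘ Fin.natAdd 3 = (embB : SL(2, F) →* _) ∘ fS ω := by funext i; fin_cases i <;> rfl
  set S₀ := modelSetup hω
  have hrel : ∀ r ∈ {r | r ∈ L}, FreeGroup.lift (f6 ω) r = 1 := by
    intro r hr
    simp only [Set.mem_ofPred_eq, hL, List.mem_append, List.mem_map] at hr
    rcases hr with (⟨r, hr, rfl⟩ | ⟨r, hr, rfl⟩) | hr
    · rw [hmap, hfA]; exact hlift embA r hr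
    · rw [hmap, hfB]; exact hlift embB r hr
    · revert r
      have g0 : f6 ω 0 = S₀.φa (xS 1) := rfl
      have g1 : f6 ω 1 = S₀.φa (dS ω) := rfl
      have g2 : f6 ω 2 = S₀.φa wS := rfl
      have g3 : f6 ω 3 = S₀.φb (xS 1) := rfl
      have g4 : f6 ω 4 = S₀.φb (dS ω) := rfl
      have g5 : f6 ω 5 = S₀.φb wS := rfl
      simp only [linkRels, List.forall_mem_cons, List.not_mem_nil, false_implies, implies_true, and_true,
        map_mul, map_inv, map_commutatorElement, map_pval, FreeGroup.lift_apply_of, g0, g1, g2, g3, g4, g5,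
        pval_φ, hPi, ← xS_neg_one, mul_inv_eq_one]
      refine ⟨S₀.torus.eq, S₀.hbXa, S₀.haXb, S₀.naHb, S₀.nbHa, S₀.naAB, S₀.nbAAB, S₀.braid.eq, S₀.bAB.eq,
        S₀.bAAB.eq, ?_, S₀.aB⟩
      rw [xS_neg_one, ← xS_neg_two]
      exact S₀.aAB
  set f := PresentedGroup.of (rels := {r | r ∈ L}) with hfdef
  have hl : ∀ r ∈ L, FreeGroup.lift f r = 1 := fun r hr => lift_of_eq_one hr
  have hmap0 : ∀ (ι : Fin 3 → Fin 6) (r : FreeGroup (Fin 3)),
      FreeGroup.lift f (FreeGroup.map ι r) = FreeGroup.lift (f ∘ ι) r := fun ι r =>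
    DFunLike.congr_fun (show (FreeGroup.lift f).comp (FreeGroup.map ι) = FreeGroup.lift (f ∘ ι) from
      FreeGroup.ext_hom _ _ fun a => by simp) r
  obtain ⟨φa, hφa⟩ := hRφ _ (f ∘ Fin.castAdd 3) fun r hr => by
    rw [← hmap0]
    exact hl _ (by simp only [hL, List.mem_append, List.mem_map]; exact Or.inl (Or.inl ⟨r, hr, rfl⟩))
  obtain ⟨φb, hφb⟩ := hRφ _ (f ∘ Fin.natAdd 3) fun r hr => by
    rw [← hmap0]
    exact hl _ (by simp only [hL, List.mem_append, List.mem_map]; exact Or.inl (Or.inr ⟨r, hr, rfl⟩))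
  have g0 : f 0 = φa (xS 1) := (hφa 0).symm
  have g1 : f 1 = φa (dS ω) := (hφa 1).symm
  have g2 : f 2 = φa wS := (hφa 2).symm
  have g3 : f 3 = φb (xS 1) := (hφb 0).symm
  have g4 : f 4 = φb (dS ω) := (hφb 1).symm
  have g5 : f 5 = φb wS := (hφb 2).symm
  have hlink : ∀ r ∈ linkRels Pi, FreeGroup.lift f r = 1 := fun r hr => hl r (by simp [hL, hr])
  simp only [linkRels, List.forall_mem_cons, List.not_mem_nil, false_implies, implies_true, and_true,
    map_mul, map_inv, map_commutatorElement, map_pval, FreeGroup.lift_apply_of, g0, g1, g2, g3, g4, g5,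
    pval_φ, hPi, mul_inv_eq_one] at hlink
  obtain ⟨h1, h2, h3, h4, h5, h6, h7, h8, h9, h10, h11, h12⟩ := hlink
  let S : Setup ω (PresentedGroup {r | r ∈ L}) :=
    ⟨hω, φa, φb, h1, h2, h3, h4, h5, by rw [xS_neg_one]; exact h6, h7, h8, h9, h10,
      by rw [xS_neg_two]; exact h11, by rw [xS_neg_one]; exact h12⟩
  have hgen : Subgroup.closure (Set.range S.φa ∪ Set.range S.φb) = ⊤ := by
    rw [eq_top_iff, ← PresentedGroup.closure_range_of, Subgroup.closure_le]
    rintro _ ⟨i, rfl⟩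
    refine Subgroup.subset_closure ?_
    fin_cases i
    exacts [Or.inl ⟨_, g0.symm⟩, Or.inl ⟨_, g1.symm⟩, Or.inl ⟨_, g2.symm⟩,
      Or.inr ⟨_, g3.symm⟩, Or.inr ⟨_, g4.symm⟩, Or.inr ⟨_, g5.symm⟩]
  obtain ⟨hfin, hcard⟩ := S.finite_and_card_le hgen
  rw [← card_Sp_four] at hcard
  let ψ := PresentedGroup.toGroup (rels := {r | r ∈ L}) (f := f6 ω) hrel
  have hψ : ∀ i, ψ (f i) = f6 ω i := fun i => PresentedGroup.toGroup.of (h := hrel)
  have hsurj : Function.Surjective ψ := by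
    rw [← MonoidHom.range_eq_top, eq_top_iff, ← closure_emb (F := F), Subgroup.closure_le]
    have htop : Subgroup.closure (Set.range (fS ω)) = ⊤ := closure_fS p hω
    rintro g (⟨s, rfl⟩ | ⟨s, rfl⟩)
    · have : s ∈ ψ.range.comap embA := by
        refine (htop.ge.trans ((Subgroup.closure_le _).2 ?_)) (Subgroup.mem_top s)
        rintro _ ⟨i, rfl⟩
        exact ⟨f (Fin.castAdd 3 i), (hψ _).trans (congrFun hfA i)⟩
      exact this
    · have : s ∈ ψ.range.comap embB := by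
        refine (htop.ge.trans ((Subgroup.closure_le _).2 ?_)) (Subgroup.mem_top s)
        rintro _ ⟨i, rfl⟩
        exact ⟨f (Fin.natAdd 3 i), (hψ _).trans (congrFun hfB i)⟩
      exact this
  exact ⟨MulEquiv.ofBijective ψ (hsurj.bijective_of_nat_card_le hcard), hψ⟩

/-- Adding a word for a generator of the centre to a presentation presents the central quotient. -/
theorem exists_quotient_presentation {α : Type*} {T : Type*} [Group T] (R : Finset (FreeGroup α))
    (e : PresentedGroup (↑R : Set (FreeGroup α)) ≃* T) (w : FreeGroup α)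
    (hz : ∀ c ∈ Subgroup.center T, c ∈ Subgroup.zpowers (e (PresentedGroup.mk _ w)))
    (hw : e (PresentedGroup.mk _ w) ∈ Subgroup.center T) :
    ∃ R' : Finset (FreeGroup α), R'.card ≤ R.card + 1 ∧
      Nonempty (PresentedGroup (↑R' : Set (FreeGroup α)) ≃* T ⧸ Subgroup.center T) := by
  classical
  refine ⟨insert w R, Finset.card_insert_le _ _, ?_⟩
  set R' := (↑(insert w R) : Set (FreeGroup α))
  have hsub : (↑R : Set (FreeGroup α)) ⊆ R' := by simp [R']
  -- forwards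
  let g : α → T ⧸ Subgroup.center T := fun a => QuotientGroup.mk (e (PresentedGroup.of a))
  have hg : FreeGroup.lift g =
      (QuotientGroup.mk' (Subgroup.center T)).comp (e.toMonoidHom.comp (PresentedGroup.mk _)) :=
    FreeGroup.ext_hom _ _ fun a => by simp [g, PresentedGroup.of]
  have hrel : ∀ r ∈ R', FreeGroup.lift g r = 1 := by
    intro r hr
    rw [hg]
    simp only [R', Finset.coe_insert, Set.mem_insert_iff] at hr
    rcases hr with rfl | hr
    · exact (QuotientGroup.eq_one_iff _).2 hw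
    · simp [PresentedGroup.one_of_mem hr]
  let φ : PresentedGroup R' →* T ⧸ Subgroup.center T := PresentedGroup.toGroup hrel
  -- backwards
  have hrel' : ∀ r ∈ (↑R : Set (FreeGroup α)), FreeGroup.lift (PresentedGroup.of (rels := R')) r = 1 :=
    fun r hr => lift_of_eq_one (hsub hr)
  let π : PresentedGroup (↑R : Set (FreeGroup α)) →* PresentedGroup R' := PresentedGroup.toGroup hrel'
  let ρ : T →* PresentedGroup R' := π.comp e.symm.toMonoidHom
  have hρw : ρ (e (PresentedGroup.mk _ w)) = 1 := by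
    have : π.comp (PresentedGroup.mk _) = FreeGroup.lift (PresentedGroup.of (rels := R')) :=
      FreeGroup.ext_hom _ _ fun a => by simp [π, ← PresentedGroup.of.eq_1]
    simp only [ρ, MonoidHom.comp_apply, MulEquiv.coe_toMonoidHom, MulEquiv.symm_apply_apply]
    rw [← MonoidHom.comp_apply, this]
    exact lift_of_eq_one (by simp [R'])
  have hker : Subgroup.center T ≤ ρ.ker := fun c hc => by
    obtain ⟨n, rfl⟩ := hz c hc
    rw [MonoidHom.mem_ker, map_zpow, hρw, one_zpow]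
  let ψ : T ⧸ Subgroup.center T →* PresentedGroup R' := QuotientGroup.lift _ ρ hker
  have h1 : ψ.comp φ = MonoidHom.id _ := PresentedGroup.ext fun a => by
    simp [ψ, φ, g, ρ, π]
  have h2 : φ.comp ψ = MonoidHom.id _ := by
    refine QuotientGroup.monoidHom_ext _ (MonoidHom.ext fun t => ?_)
    obtain ⟨x, rfl⟩ := e.surjective t
    have : (φ.comp π) = (QuotientGroup.mk' (Subgroup.center T)).comp e.toMonoidHom :=
      PresentedGroup.ext fun a => by simp [φ, π, g]
    simpa [ψ, ρ] using DFunLike.congr_fun this x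
  exact ⟨φ.toMulEquiv ψ h1 h2⟩

/-- `Sp₄(F)` and `PSp₄(F)` on six generators. -/
theorem presentation :
    (∃ rels : Finset (FreeGroup (Fin 6)), rels.card ≤ 28 ∧
      Nonempty (PresentedGroup (↑rels : Set (FreeGroup (Fin 6))) ≃* Matrix.symplecticGroup (Fin 2) F)) ∧
    ∃ rels : Finset (FreeGroup (Fin 6)), rels.card ≤ 29 ∧
      Nonempty (PresentedGroup (↑rels : Set (FreeGroup (Fin 6))) ≃* Cfsg.PSp 2 F) := by
  obtain ⟨p, hp⟩ := CharP.exists F
  have : Fact p.Prime := ⟨CharP.char_is_prime F p⟩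
  let _ : Algebra (ZMod p) F := ZMod.algebra F p
  obtain ⟨ω, hω⟩ := IsCyclic.exists_generator (α := Fˣ)
  obtain ⟨Pi, hPi⟩ := aeval_sq_surjective (p := p) hω ((ω⁻¹ : Fˣ) : F)
  have h2 : IsRelators ω 8 := by
    rcases eq_or_ne p 2 with rfl | hp2
    · obtain ⟨R, hR, h⟩ := relators_even hω
      exact ⟨R, hR.trans (by norm_num), h⟩
    · exact relators_odd hp2 hω
  obtain ⟨R, hR, e, he⟩ := presentation_of hω h2 hPi
  refine ⟨⟨R, hR, ⟨e⟩⟩, ?_⟩
  obtain ⟨n, hn⟩ := exists_pow_eq hω (-1 : Fˣ)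
  have hew : e (PresentedGroup.mk _ (aH ^ n)) = embA (dS (-1)) := by
    rw [map_pow, map_pow, show PresentedGroup.mk _ aH = PresentedGroup.of 1 from rfl, he]
    show embA (dS ω) ^ n = _
    rw [← map_pow, ← map_pow, hn]
  have hcoe : ((embA (dS (-1 : Fˣ)) : Matrix.symplecticGroup (Fin 2) F) :
      Matrix (Fin 2 ⊕ Fin 2) (Fin 2 ⊕ Fin 2) F) = -1 := by
    rw [coe_embA, matA]
    ext (i | i) (j | j) <;> fin_cases i <;> fin_cases j <;> simp [coe_dS]
  obtain ⟨R', hR', h'⟩ := exists_quotient_presentation R e (aH ^ n)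
    (fun c hc => by
      rw [hew]
      rcases (ClassicalLinear.mem_center_sp_iff one_le_two).1 hc with h | h
      · rw [show c = 1 from Subtype.ext h]; exact one_mem _
      · rw [show c = embA (dS (-1)) from Subtype.ext (h.trans hcoe.symm)]; exact Subgroup.mem_zpowers _)
    (by rw [hew]; exact ClassicalLinear.mem_center_of_eq_or_neg (Or.inr hcoe))
  exact ⟨R', hR'.trans (by omega), h'⟩

end CfsgLib.Sp4Pres
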