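import Cfsg.Agent.Lib.SL3Pres.Setup

/-!
The data of the presentation of `Sp₄(F)`: images of two copies of `SL₂(F)`, one for a short simple root `a` and
one for a long simple root `b`, with relations between their generators.
-/

set_option autoImplicit false
set_option linter.unusedSectionVars false

namespace CfsgLib.Sp4Pres

open CfsgLib.SL2Pres CfsgLib.SL3Pres
open scoped MatrixGroups commutatorElement

variable {F : Type*} [Field F] [Finite F]

/-- The relations of the presentation that involve both copies of `SL₂(F)`. -/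
structure Setup (ω : Fˣ) (G : Type*) [Group G] where
  gen : ∀ x : Fˣ, x ∈ Subgroup.zpowers ω
  φa : SL(2, F) →* G
  φb : SL(2, F) →* G
  torus : Commute (φa (dS ω)) (φb (dS ω))
  hbXa : φb (dS ω) * φa (xS 1) * (φb (dS ω))⁻¹ = φa (xS ((ω⁻¹ : Fˣ) : F))
  haXb : φa (dS ω) * φb (xS 1) * (φa (dS ω))⁻¹ = (φb (dS ω))⁻¹ * φb (xS 1) * φb (dS ω)
  naHb : φa wS * φb (dS ω) * (φa wS)⁻¹ = φa (dS ω) * φb (dS ω)
  nbHa : φb wS * φa (dS ω) * (φb wS)⁻¹ = φa (dS ω) * (φb (dS ω) * φb (dS ω))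
  naAB : φa wS * (φb wS * φa (xS 1) * (φb wS)⁻¹) * (φa wS)⁻¹ = φb wS * φa (xS (-1)) * (φb wS)⁻¹
  nbAAB : φb wS * (φa wS * φb (xS 1) * (φa wS)⁻¹) * (φb wS)⁻¹ = φa wS * φb (xS 1) * (φa wS)⁻¹
  braid : Commute (φb wS) ((φa wS)⁻¹ * φb wS * φa wS)
  bAB : Commute (φb (xS 1)) (φb wS * φa (xS 1) * (φb wS)⁻¹)
  bAAB : Commute (φb (xS 1)) (φa wS * φb (xS 1) * (φa wS)⁻¹)
  aAB : ⁅φa (xS 1), φb wS * φa (xS 1) * (φb wS)⁻¹⁆ = φa wS * φb (xS (-2)) * (φa wS)⁻¹
  aB : ⁅φa (xS 1), φb (xS 1)⁆ =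
    φb wS * φa (xS (-1)) * (φb wS)⁻¹ * (φa wS * φb (xS 1) * (φa wS)⁻¹)

namespace Setup

variable {ω : Fˣ} {G : Type*} [Group G] (S : Setup ω G)

/-- Root map of the short simple root. -/
def xa (t : F) : G := S.φa (xS t)
/-- Root map of the long simple root. -/
def xb (t : F) : G := S.φb (xS t)
/-- Weyl element. -/
def na : G := S.φa wS
/-- Weyl element. -/
def nb : G := S.φb wS
/-- Root map of the short root `a + b`. -/
def xab (t : F) : G := S.nb * S.xa t * S.nb⁻¹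
/-- Root map of the long root `2a + b`. -/
def xc (t : F) : G := S.na * S.xb t * S.na⁻¹
/-- Torus of the short root. -/
def ha : Fˣ →* G := S.φa.comp dS
/-- Torus of the long root. -/
def hb : Fˣ →* G := S.φb.comp dS

theorem xa_add (s t : F) : S.xa (s + t) = S.xa s * S.xa t := by rw [xa, xS_add, map_mul]; rfl
theorem xb_add (s t : F) : S.xb (s + t) = S.xb s * S.xb t := by rw [xb, xS_add, map_mul]; rfl
theorem xab_add (s t : F) : S.xab (s + t) = S.xab s * S.xab t := by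
  simp only [xab, xa_add]; group
theorem xc_add (s t : F) : S.xc (s + t) = S.xc s * S.xc t := by
  simp only [xc, xb_add]; group

theorem xa_zero : S.xa 0 = 1 := by rw [xa, xS_zero, map_one]
theorem xb_zero : S.xb 0 = 1 := by rw [xb, xS_zero, map_one]
theorem xab_zero : S.xab 0 = 1 := by rw [xab, xa_zero, mul_one, mul_inv_cancel]
theorem xc_zero : S.xc 0 = 1 := by rw [xc, xb_zero, mul_one, mul_inv_cancel]

theorem xa_neg (t : F) : S.xa (-t) = (S.xa t)⁻¹ := by rw [xa, xS_neg, map_inv]; rfl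
theorem xb_neg (t : F) : S.xb (-t) = (S.xb t)⁻¹ := by rw [xb, xS_neg, map_inv]; rfl
theorem xab_neg (t : F) : S.xab (-t) = (S.xab t)⁻¹ := by simp only [xab, xa_neg]; group
theorem xc_neg (t : F) : S.xc (-t) = (S.xc t)⁻¹ := by simp only [xc, xb_neg]; group

theorem conj_conj (g h x : G) : g * (h * x * h⁻¹) * g⁻¹ = g * h * x * (g * h)⁻¹ := by group

include S in
theorem exists_pow (s : Fˣ) : ∃ n : ℕ, ω ^ n = s := exists_pow_eq S.gen s

theorem commute_ha_hb (s t : Fˣ) : Commute (S.ha s) (S.hb t) := by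
  obtain ⟨n, rfl⟩ := S.exists_pow s
  obtain ⟨m, rfl⟩ := S.exists_pow t
  rw [map_pow, map_pow]
  exact Commute.pow_pow S.torus n m

theorem ha_xa (s : Fˣ) (t : F) : S.ha s * S.xa t * (S.ha s)⁻¹ = S.xa ((s : F) ^ 2 * t) := by
  rw [ha, MonoidHom.comp_apply, xa, ← map_mul, ← map_inv, ← map_mul, dS_xS]; rfl

theorem hb_xb (s : Fˣ) (t : F) : S.hb s * S.xb t * (S.hb s)⁻¹ = S.xb ((s : F) ^ 2 * t) := by
  rw [hb, MonoidHom.comp_apply, xb, ← map_mul, ← map_inv, ← map_mul, dS_xS]; rfl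

theorem na_ha (s : Fˣ) : S.na * S.ha s * S.na⁻¹ = S.ha s⁻¹ := by
  rw [na, ha, MonoidHom.comp_apply, MonoidHom.comp_apply, ← map_mul, ← map_inv, ← map_mul, wS_dS]

theorem nb_hb (s : Fˣ) : S.nb * S.hb s * S.nb⁻¹ = S.hb s⁻¹ := by
  rw [nb, hb, MonoidHom.comp_apply, MonoidHom.comp_apply, ← map_mul, ← map_inv, ← map_mul, wS_dS]

theorem na_sq : S.na * S.na = S.ha (-1) := by
  rw [na, ha, MonoidHom.comp_apply, ← map_mul, wS_mul_wS]

theorem nb_sq : S.nb * S.nb = S.hb (-1) := by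
  rw [nb, hb, MonoidHom.comp_apply, ← map_mul, wS_mul_wS]

theorem na_hb (s : Fˣ) : S.na * S.hb s * S.na⁻¹ = S.ha s * S.hb s := by
  obtain ⟨n, rfl⟩ := S.exists_pow s
  rw [map_pow, map_pow, ← conj_pow, show S.na * S.hb ω * S.na⁻¹ = S.ha ω * S.hb ω from S.naHb,
    (S.commute_ha_hb ω ω).mul_pow]

theorem nb_ha (s : Fˣ) : S.nb * S.ha s * S.nb⁻¹ = S.ha s * S.hb (s * s) := by
  obtain ⟨n, rfl⟩ := S.exists_pow s
  rw [← mul_pow, map_pow, map_pow, map_mul, ← conj_pow,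
    show S.nb * S.ha ω * S.nb⁻¹ = S.ha ω * (S.hb ω * S.hb ω) from S.nbHa,
    ((S.commute_ha_hb ω ω).mul_right (S.commute_ha_hb ω ω)).mul_pow]

theorem nainv_hb (s : Fˣ) : S.na⁻¹ * S.hb s * S.na = S.ha s * S.hb s := by
  have h1 := S.na_hb s
  have e : S.na⁻¹ * S.hb s * S.na = (S.ha (-1))⁻¹ * (S.na * S.hb s * S.na⁻¹) * S.ha (-1) := by
    rw [← na_sq]; group
  rw [e, h1]
  have hc : Commute (S.ha (-1)) (S.ha s * S.hb s) :=
    Commute.mul_right ((Commute.all _ _).map S.ha) (S.commute_ha_hb _ _)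
  rw [hc.inv_left.eq, inv_mul_cancel_right]

theorem nbinv_ha (s : Fˣ) : S.nb⁻¹ * S.ha s * S.nb = S.ha s * S.hb (s * s) := by
  have h1 := S.nb_ha s
  have e : S.nb⁻¹ * S.ha s * S.nb = (S.hb (-1))⁻¹ * (S.nb * S.ha s * S.nb⁻¹) * S.hb (-1) := by
    rw [← nb_sq]; group
  rw [e, h1]
  have hc : Commute (S.hb (-1)) (S.ha s * S.hb (s * s)) :=
    Commute.mul_right (S.commute_ha_hb _ _).symm ((Commute.all _ _).map S.hb)
  rw [hc.inv_left.eq, inv_mul_cancel_right]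

theorem nainv_ha (s : Fˣ) : S.na⁻¹ * S.ha s * S.na = S.ha s⁻¹ := by
  have h := S.na_ha s⁻¹
  rw [inv_inv] at h
  rw [← h]; group

theorem nbinv_hb (s : Fˣ) : S.nb⁻¹ * S.hb s * S.nb = S.hb s⁻¹ := by
  have h := S.nb_hb s⁻¹
  rw [inv_inv] at h
  rw [← h]; group

theorem hbω_xa (t : F) : S.hb ω * S.xa t * (S.hb ω)⁻¹ = S.xa (((ω⁻¹ : Fˣ) : F) * t) := by
  let A : AddSubmonoid F :=
    { carrier := {a | S.hb ω * S.xa a * (S.hb ω)⁻¹ = S.xa (((ω⁻¹ : Fˣ) : F) * a)}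
      zero_mem' := by simp [xa_zero]
      add_mem' := fun {a b} ha hb => by
        simp only [Set.mem_ofPred_eq] at ha hb ⊢
        rw [mul_add, xa_add, xa_add, ← ha, ← hb]; group }
  refine mem_of_sq_closed S.gen A ?_ (fun a ha => ?_) t
  · show S.hb ω * S.xa 1 * (S.hb ω)⁻¹ = S.xa (((ω⁻¹ : Fˣ) : F) * 1)
    rw [mul_one]; exact S.hbXa
  · have ha' : S.hb ω * S.xa a * (S.hb ω)⁻¹ = S.xa (((ω⁻¹ : Fˣ) : F) * a) := ha
    show S.hb ω * S.xa ((ω : F) ^ 2 * a) * (S.hb ω)⁻¹ = _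
    rw [← S.ha_xa, conj_conj, ← (S.commute_ha_hb ω ω).eq, ← conj_conj, ha', ha_xa]
    congr 1; ring

theorem haω_xb (t : F) :
    S.ha ω * S.xb t * (S.ha ω)⁻¹ = S.xb (((ω⁻¹ : Fˣ) : F) ^ 2 * t) := by
  let A : AddSubmonoid F :=
    { carrier := {a | S.ha ω * S.xb a * (S.ha ω)⁻¹ = S.xb (((ω⁻¹ : Fˣ) : F) ^ 2 * a)}
      zero_mem' := by simp [xb_zero]
      add_mem' := fun {a b} ha hb => by
        simp only [Set.mem_ofPred_eq] at ha hb ⊢
        rw [mul_add, xb_add, xb_add, ← ha, ← hb]; group }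
  refine mem_of_sq_closed S.gen A ?_ (fun a ha => ?_) t
  · show S.ha ω * S.xb 1 * (S.ha ω)⁻¹ = S.xb (((ω⁻¹ : Fˣ) : F) ^ 2 * 1)
    rw [← S.hb_xb ω⁻¹, map_inv, inv_inv]
    exact S.haXb
  · have ha' : S.ha ω * S.xb a * (S.ha ω)⁻¹ = S.xb (((ω⁻¹ : Fˣ) : F) ^ 2 * a) := ha
    show S.ha ω * S.xb ((ω : F) ^ 2 * a) * (S.ha ω)⁻¹ = _
    rw [← S.hb_xb, conj_conj, (S.commute_ha_hb ω ω).eq, ← conj_conj, ha', hb_xb]
    congr 1; ring

theorem hb_xa (s : Fˣ) (t : F) : S.hb s * S.xa t * (S.hb s)⁻¹ = S.xa (((s⁻¹ : Fˣ) : F) * t) := by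
  obtain ⟨n, rfl⟩ := S.exists_pow s
  induction n generalizing t with
  | zero => simp
  | succ n ih =>
    rw [pow_succ, map_mul, ← conj_conj, hbω_xa, ih]
    congr 1; rw [mul_inv_rev, Units.val_mul]; ring

theorem ha_xb (s : Fˣ) (t : F) :
    S.ha s * S.xb t * (S.ha s)⁻¹ = S.xb (((s⁻¹ : Fˣ) : F) ^ 2 * t) := by
  obtain ⟨n, rfl⟩ := S.exists_pow s
  induction n generalizing t with
  | zero => simp
  | succ n ih =>
    rw [pow_succ, map_mul, ← conj_conj, haω_xb, ih]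
    congr 1; rw [mul_inv_rev, Units.val_mul]; ring

theorem conj_shift (g n x : G) : g * (n * x * n⁻¹) * g⁻¹ = n * ((n⁻¹ * g * n) * x * (n⁻¹ * g * n)⁻¹) * n⁻¹ := by
  group

theorem hb_xab (s : Fˣ) (t : F) : S.hb s * S.xab t * (S.hb s)⁻¹ = S.xab ((s : F) * t) := by
  rw [xab, conj_shift, nbinv_hb, hb_xa, inv_inv]; rfl

theorem ha_xab (s : Fˣ) (t : F) : S.ha s * S.xab t * (S.ha s)⁻¹ = S.xab t := by
  rw [xab, conj_shift, nbinv_ha, ← conj_conj, hb_xa, ha_xa]
  congr 3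
  rw [Units.val_inv_eq_inv_val, Units.val_mul]; field_simp

theorem hb_xc (s : Fˣ) (t : F) : S.hb s * S.xc t * (S.hb s)⁻¹ = S.xc t := by
  rw [xc, conj_shift, nainv_hb, ← conj_conj, hb_xb, ha_xb]
  congr 3
  rw [Units.val_inv_eq_inv_val]; field_simp

theorem ha_xc (s : Fˣ) (t : F) : S.ha s * S.xc t * (S.ha s)⁻¹ = S.xc ((s : F) ^ 2 * t) := by
  rw [xc, conj_shift, nainv_ha, ha_xb, inv_inv]; rfl

theorem na_xab (t : F) : S.na * S.xab t * S.na⁻¹ = S.xab (-t) := by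
  let A : AddSubmonoid F :=
    { carrier := {a | S.na * S.xab a * S.na⁻¹ = S.xab (-a)}
      zero_mem' := by simp [xab_zero]
      add_mem' := fun {a b} ha hb => by
        simp only [Set.mem_ofPred_eq] at ha hb ⊢
        rw [neg_add, xab_add, xab_add, ← ha, ← hb]; group }
  refine mem_of_sq_closed S.gen A S.naAB (fun a ha => ?_) t
  have ha' : S.na * S.xab a * S.na⁻¹ = S.xab (-a) := ha
  show S.na * S.xab ((ω : F) ^ 2 * a) * S.na⁻¹ = _
  rw [← Units.val_pow_eq_pow_val, ← S.hb_xab, conj_conj]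
  rw [show S.na * S.hb (ω ^ 2) = S.ha (ω ^ 2) * S.hb (ω ^ 2) * S.na from
    mul_inv_eq_iff_eq_mul.1 (S.na_hb _), ← conj_conj, ha', ← conj_conj, hb_xab, ha_xab, mul_neg]

theorem nb_xc (t : F) : S.nb * S.xc t * S.nb⁻¹ = S.xc t := by
  let A : AddSubmonoid F :=
    { carrier := {a | S.nb * S.xc a * S.nb⁻¹ = S.xc a}
      zero_mem' := by simp [xc_zero]
      add_mem' := fun {a b} ha hb => by
        simp only [Set.mem_ofPred_eq] at ha hb ⊢
        nth_rewrite 2 [xc_add]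
        rw [xc_add]; nth_rewrite 2 [← ha]; nth_rewrite 2 [← hb]; group }
  refine mem_of_sq_closed S.gen A S.nbAAB (fun a ha => ?_) t
  have ha' : S.nb * S.xc a * S.nb⁻¹ = S.xc a := ha
  show S.nb * S.xc ((ω : F) ^ 2 * a) * S.nb⁻¹ = _
  rw [← S.ha_xc, conj_conj]
  rw [show S.nb * S.ha ω = S.ha ω * S.hb (ω * ω) * S.nb from
    mul_inv_eq_iff_eq_mul.1 (S.nb_ha _), ← conj_conj, ha', ← conj_conj, hb_xc]

theorem conj_commute {g a b : G} (h : Commute a b) : Commute (g * a * g⁻¹) (g * b * g⁻¹) :=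
  show g * a * g⁻¹ * (g * b * g⁻¹) = g * b * g⁻¹ * (g * a * g⁻¹) by
    rw [show g * a * g⁻¹ * (g * b * g⁻¹) = g * (a * b) * g⁻¹ by group, h.eq]; group

theorem conj_comm (g a b : G) : g * ⁅a, b⁆ * g⁻¹ = ⁅g * a * g⁻¹, g * b * g⁻¹⁆ := by
  simp only [commutatorElement_def]; group

theorem comm_b_ab (u v : F) : Commute (S.xb u) (S.xab v) := by
  have h1 : ∀ u, Commute (S.xb u) (S.xab 1) := by
    intro u
    let A : AddSubmonoid F :=
      { carrier := {a | Commute (S.xb a) (S.xab 1)}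
        zero_mem' := by simp [xb_zero]
        add_mem' := fun {a b} (ha : Commute _ _) (hb : Commute _ _) =>
          show Commute _ _ by rw [xb_add]; exact ha.mul_left hb }
    refine mem_of_sq_closed S.gen A S.bAB (fun a ha => ?_) u
    have h := conj_commute (g := S.ha ω⁻¹) (show Commute (S.xb a) (S.xab 1) from ha)
    rw [ha_xb, ha_xab, inv_inv] at h
    exact h
  rcases eq_or_ne v 0 with rfl | hv
  · rw [xab_zero]; exact Commute.one_right _
  have h := conj_commute (g := S.hb (Units.mk0 v hv)) (h1 (u / v ^ 2))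
  rw [hb_xb, hb_xab, Units.val_mk0, mul_one] at h
  convert h using 2
  field_simp

theorem comm_b_c (u z : F) : Commute (S.xb u) (S.xc z) := by
  have h1 : ∀ u, Commute (S.xb u) (S.xc 1) := by
    intro u
    let A : AddSubmonoid F :=
      { carrier := {a | Commute (S.xb a) (S.xc 1)}
        zero_mem' := by simp [xb_zero]
        add_mem' := fun {a b} (ha : Commute _ _) (hb : Commute _ _) =>
          show Commute _ _ by rw [xb_add]; exact ha.mul_left hb }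
    refine mem_of_sq_closed S.gen A S.bAAB (fun a ha => ?_) u
    have h := conj_commute (g := S.hb ω) (show Commute (S.xb a) (S.xc 1) from ha)
    rw [hb_xb, hb_xc] at h
    exact h
  let A : AddSubmonoid F :=
    { carrier := {z | ∀ u, Commute (S.xb u) (S.xc z)}
      zero_mem' := fun u => by rw [xc_zero]; exact Commute.one_right _
      add_mem' := fun {a b} ha hb u => by rw [xc_add]; exact (ha u).mul_right (hb u) }
  refine mem_of_sq_closed S.gen A h1 (fun a ha u => ?_) z u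
  have h := conj_commute (g := S.ha ω) (ha ((ω : F) ^ 2 * u))
  rw [ha_xb, ha_xc] at h
  convert h using 2
  rw [Units.val_inv_eq_inv_val]; field_simp

theorem comm_ab_c (v z : F) : Commute (S.xab v) (S.xc z) := by
  have h := conj_commute (g := S.na) (S.comm_b_ab z (-v)).symm
  rwa [na_xab, neg_neg] at h

theorem comm_a_c (t z : F) : Commute (S.xa t) (S.xc z) := by
  have h := S.comm_ab_c t z
  rw [← S.nb_xc z, xab] at h
  have h' := conj_commute (g := S.nb⁻¹) h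
  simpa [mul_assoc] using h'

theorem comm_a_ab (t v : F) : ⁅S.xa t, S.xab v⁆ = S.xc (-(2 * t * v)) := by
  have h1 : ∀ t, ⁅S.xa t, S.xab 1⁆ = S.xc (-(2 * t)) := by
    intro t
    let A : AddSubmonoid F :=
      { carrier := {a | ⁅S.xa a, S.xab 1⁆ = S.xc (-(2 * a))}
        zero_mem' := by simp [xa_zero, xc_zero]
        add_mem' := fun {a b} ha hb => by
          simp only [Set.mem_ofPred_eq] at ha hb ⊢
          have e : ⁅S.xa a * S.xa b, S.xab 1⁆ =
              S.xa a * ⁅S.xa b, S.xab 1⁆ * (S.xa a)⁻¹ * ⁅S.xa a, S.xab 1⁆ := by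
            simp only [commutatorElement_def]; group
          rw [xa_add, e, ha, hb, (S.comm_a_c a _).eq, mul_inv_cancel_right, ← xc_add]
          congr 1; ring }
    refine mem_of_sq_closed S.gen A ?_ (fun a ha => ?_) t
    · show ⁅S.xa 1, S.xab 1⁆ = S.xc (-(2 * 1))
      rw [mul_one]; exact S.aAB
    · have h := congrArg (fun g => S.ha ω * g * (S.ha ω)⁻¹) (show ⁅S.xa a, S.xab 1⁆ = _ from ha)
      simp only [conj_comm, ha_xa, ha_xab, ha_xc] at h
      show ⁅S.xa ((ω : F) ^ 2 * a), S.xab 1⁆ = _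
      rw [h]; congr 1; ring
  rcases eq_or_ne v 0 with rfl | hv
  · rw [xab_zero, commutatorElement_one_right, mul_zero, neg_zero, xc_zero]
  have h := congrArg (fun g => S.hb (Units.mk0 v hv) * g * (S.hb (Units.mk0 v hv))⁻¹) (h1 (t * v))
  simp only [conj_comm, hb_xa, hb_xab, hb_xc, Units.val_inv_eq_inv_val, Units.val_mk0, mul_one] at h
  rw [show v⁻¹ * (t * v) = t by field_simp] at h
  rw [h]; congr 1; ring

theorem comm_a_b (t u : F) : ⁅S.xa t, S.xb u⁆ = S.xab (-(t * u)) * S.xc (t ^ 2 * u) := by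
  have h1 : ∀ t, ⁅S.xa t, S.xb 1⁆ = S.xab (-t) * S.xc (t ^ 2) := by
    intro t
    rcases eq_or_ne t 0 with rfl | ht
    · rw [xa_zero, commutatorElement_one_left, neg_zero, xab_zero, zero_pow two_ne_zero, xc_zero, one_mul]
    let s := Units.mk0 t ht
    have h := congrArg (fun g => S.ha s * (S.hb s * g * (S.hb s)⁻¹) * (S.ha s)⁻¹)
      (show ⁅S.xa 1, S.xb 1⁆ = S.xab (-1) * S.xc 1 from S.aB)
    simp only [conj_comm, ← conj_mul, hb_xa, hb_xb, hb_xab, hb_xc, ha_xa, ha_xb, ha_xab, ha_xc] at h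
    simp only [s, Units.val_inv_eq_inv_val, Units.val_mk0, mul_one, mul_neg] at h
    rw [show t ^ 2 * t⁻¹ = t by field_simp, show (t⁻¹) ^ 2 * t ^ 2 = (1 : F) by field_simp] at h
    exact h
  let A : AddSubmonoid F :=
    { carrier := {u | ∀ t, ⁅S.xa t, S.xb u⁆ = S.xab (-(t * u)) * S.xc (t ^ 2 * u)}
      zero_mem' := fun t => by simp [xb_zero, xab_zero, xc_zero]
      add_mem' := fun {a b} ha hb t => by
        have e : ⁅S.xa t, S.xb a * S.xb b⁆ =
            ⁅S.xa t, S.xb a⁆ * (S.xb a * ⁅S.xa t, S.xb b⁆ * (S.xb a)⁻¹) := by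
          simp only [commutatorElement_def]; group
        rw [xb_add, e, ha, hb, ((S.comm_b_ab a _).mul_right (S.comm_b_c a _)).eq, mul_inv_cancel_right,
          mul_add, mul_add, neg_add, xab_add, xc_add]
        simp only [mul_assoc]
        rw [← mul_assoc (S.xc (t ^ 2 * a)), ← (S.comm_ab_c (-(t * b)) _).eq, mul_assoc] }
  refine mem_of_sq_closed S.gen A (fun t => by rw [mul_one, mul_one]; exact h1 t) (fun a ha t => ?_) u t
  have h := congrArg (fun g => S.hb ω * g * (S.hb ω)⁻¹) (ha ((ω : F) * t))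
  simp only [conj_comm, ← conj_mul, hb_xa, hb_xb, hb_xab, hb_xc] at h
  rw [show ((ω⁻¹ : Fˣ) : F) * ((ω : F) * t) = t by rw [← mul_assoc, ← Units.val_mul, inv_mul_cancel, Units.val_one, one_mul]] at h
  rw [h]
  congr 2 <;> ring

end Setup

end CfsgLib.Sp4Pres
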